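import Mathlib
import Cfsg.Agent.Lib.XC.Defs
import Cfsg.Agent.Lib.PLocal.PSolvable

/-! SP2 (S3019: pairs of Sylow `p`-subgroups generate `p`-solvable groups): definitions. -/

set_option autoImplicit false
set_option linter.unusedSectionVars false

namespace CfsgLib.SP2

open Subgroup Cfsg CfsgLib.PComp CfsgLib.Tech CfsgLib.Char CfsgLib.XC
open scoped ComplexConjugate

variable {G : Type*} [Group G] [Finite G]

/-- any two `p`-subgroups generate a `p`-solvable group -/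
def Pair (p : ℕ) (G : Type*) [Group G] : Prop :=
  ∀ A B : Subgroup G, IsPGroup p A → IsPGroup p B → IsPSolvable p ↥(A ⊔ B)

/-- the `p`-central elements: those in the centre of some Sylow `p`-subgroup -/
def DZ (p : ℕ) (G : Type*) [Group G] : Set G :=
  {d | ∃ P : Sylow p G, d ∈ (P : Subgroup G) ∧ (P : Subgroup G) ≤ centralizer ({d} : Set G)}

/-- the subgroup generated by the `p`-central elements of `G` lying in `A` -/
def WW (p : ℕ) (A : Subgroup G) : Subgroup G := closure (DZ p G ∩ (A : Set G))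

/-- the abstract situation of the character-theoretic argument -/
structure Hy (p : ℕ) (H N : Subgroup G) (KK : Finset G) (K : G → Subgroup G) : Prop where
  pg : IsPGroup p H
  ab : ∀ a ∈ H, ∀ b ∈ H, a * b = b * a
  nm : N ≤ normalizer (H : Set G)
  cop : ∀ k, (Nat.card (K k)).Coprime p
  nk : ∀ k, H ≤ normalizer (K k : Set G)
  com : ∀ k ∈ KK, ∀ b ∈ H, k * b * k⁻¹ * b⁻¹ ∈ K k
  inv : ∀ k ∈ KK, k⁻¹ ∈ KK
  dec : ∀ g : G, ∃ k ∈ KK, k⁻¹ * g ∈ N
  sum : ∀ F : G → ℂ, (∀ g : G, ∀ n ∈ N, F (g * n) = F g) →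
    (Nat.card G : ℂ) * ∑ k ∈ KK, F k = (KK.card : ℂ) * ∑ g ∈ fs (Set.univ : Set G), F g

/-- `χ` is constant on the cosets `K_k c`, `1 ≠ c ∈ H` -/
def Gd (H : Subgroup G) (KK : Finset G) (K : G → Subgroup G) (χ : G → ℂ) : Prop :=
  ∀ c ∈ H, c ≠ 1 → ∀ k ∈ KK, ∀ s ∈ K k, χ (s * c) = χ c

/-- the situation of the block-theoretic argument -/
structure Bk (p : ℕ) (M : Ideal AlgInt) (H N : Subgroup G) (KK : Finset G) (K : G → Subgroup G) : Prop where
  hy : Hy p H N KK K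
  modu : IsPModular p M
  cf : CoreFree H
  good : ∀ χ ∈ B0 M G, Gd H KK K (χ : G → ℂ)
  faith : Faith M G

variable {p : ℕ} {M : Ideal AlgInt} {H N : Subgroup G} {KK : Finset G} {K : G → Subgroup G}

theorem Hy.pElt [Fact p.Prime] (h : Hy p H N KK K) {a : G} (ha : a ∈ H) : ∃ k : ℕ, orderOf a = p ^ k :=
  isPGroup_zpowers_iff.mp (isPGroup_zpowers_of_mem h.pg ha)

theorem Hy.card_pos (h : Hy p H N KK K) : 0 < KK.card := by
  obtain ⟨k, hk, -⟩ := h.dec 1
  exact Finset.card_pos.2 ⟨k, hk⟩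

theorem Hy.mono (h : Hy p H N KK K) {A : Subgroup G} (hA : A ≤ H) (hN : N ≤ normalizer (A : Set G)) :
    Hy p A N KK K :=
  ⟨h.pg.to_le hA, fun a ha b hb => h.ab a (hA ha) b (hA hb), hN, h.cop, fun k => hA.trans (h.nk k),
    fun k hk b hb => h.com k hk b (hA hb), h.inv, h.dec, h.sum⟩

theorem Bk.mono (h : Bk p M H N KK K) {A : Subgroup G} (hA : A ≤ H) (hN : N ≤ normalizer (A : Set G)) :
    Bk p M A N KK K :=
  ⟨h.hy.mono hA hN, h.modu, fun L hL hLA => h.cf L hL (hLA.trans hA),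
    fun χ hχ c hc => h.good χ hχ c (hA hc), h.faith⟩

end CfsgLib.SP2
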