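import Mathlib
import Cfsg.Agent.Lib.SP2.Defs
import Cfsg.Agent.Lib.XC.KEY
import Cfsg.Agent.Lib.XC.TB

/-! SP2/CH: the class-sum identities in the abstract situation (adapted from XC/ID, TA, TB, KEY). -/

set_option autoImplicit false
set_option linter.unusedSectionVars false
set_option linter.unusedVariables false

namespace CfsgLib.SP2

open Subgroup Cfsg CfsgLib.PComp CfsgLib.Tech CfsgLib.Char CfsgLib.XC
open scoped ComplexConjugate

variable {G : Type*} [Group G] [Finite G] {p : ℕ} [hp : Fact p.Prime] {M : Ideal AlgInt}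
  {H N : Subgroup G} {KK : Finset G} {K : G → Subgroup G} {χ : G → ℂ}

theorem Hy.eq_one (h : Hy p H N KK K) {k x : G} (h1 : x ∈ K k) (h2 : x ∈ H) : x = 1 :=
  (Subgroup.disjoint_def.1 (PLocal.PSolv.disjoint_of_isPGroup_of_coprime h.pg (h.cop k))) h2 h1

theorem Hy.not_dvd (h : Hy p H N KK K) {k s : G} (hs : s ∈ K k) : ¬ p ∣ orderOf s :=
  (Nat.Prime.coprime_iff_not_dvd hp.out).1 ((h.cop k).coprime_dvd_left (orderOf_dvd_natCard _ hs)).symm

theorem Hy.com' (h : Hy p H N KK K) {k a : G} (hk : k ∈ KK) (ha : a ∈ H) : k * a⁻¹ * k⁻¹ * a ∈ K k := by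
  have := h.com k hk _ (inv_mem ha)
  rwa [inv_inv] at this

theorem Hy.fusion (h : Hy p H N KK K) {a c : G} (ha : a ∈ H) (hc : c ∈ H) (hac : IsConj a c) :
    ∃ n ∈ N, n * a * n⁻¹ = c := by
  obtain ⟨g, rfl⟩ := isConj_iff.1 hac
  obtain ⟨k, hk, hn⟩ := h.dec g
  refine ⟨k⁻¹ * g, hn, ?_⟩
  have h1 : k⁻¹ * g * a * (k⁻¹ * g)⁻¹ ∈ H := conj_mem_of_mem_normalizer (h.nm hn) ha
  have h2 := h.com k hk _ h1
  have h3 : k * (k⁻¹ * g * a * (k⁻¹ * g)⁻¹) * k⁻¹ = g * a * g⁻¹ := by group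
  rw [h3] at h2
  exact (mul_inv_eq_one.1 (h.eq_one h2 (mul_mem hc (inv_mem h1)))).symm

theorem Hy.exists_noncomm (h : Hy p H N KK K) (hcf : CoreFree H) {a : G} (ha : a ∈ H) (ha1 : a ≠ 1) :
    ∃ k ∈ KK, k * a ≠ a * k := by
  by_contra hcon
  have hall : ∀ k ∈ KK, k * a = a * k := fun k hk => by
    by_contra hne
    exact hcon ⟨k, hk, hne⟩
  have h1 : normalClosure ({a} : Set G) ≤ H := by
    refine (closure_le _).2 fun x hx => ?_
    obtain ⟨y, hy, hc⟩ := Group.mem_conjugatesOfSet_iff.1 hx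
    rw [Set.mem_singleton_iff.1 hy] at hc
    obtain ⟨g, rfl⟩ := isConj_iff.1 hc
    obtain ⟨k, hk, hn⟩ := h.dec g⁻¹
    have h2 : (k⁻¹ * g⁻¹)⁻¹ * a * (k⁻¹ * g⁻¹) ∈ H := conj_mem_of_mem_normalizer' (h.nm hn) ha
    have h3 : (k⁻¹ * g⁻¹)⁻¹ * a * (k⁻¹ * g⁻¹) = g * (k * a) * k⁻¹ * g⁻¹ := by group
    rw [h3, hall k hk] at h2
    have h4 : g * (a * k) * k⁻¹ * g⁻¹ = g * a * g⁻¹ := by group
    rw [h4] at h2
    exact h2
  have h2 := hcf _ inferInstance h1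
  exact ha1 (mem_bot.1 (h2 ▸ subset_normalClosure (Set.mem_singleton a)))

theorem avg (h : Hy p H N KK K) (hχ : IsIrrCharacter G χ) (D : Finset G)
    (hD : ∀ n ∈ N, ∀ b ∈ D, n * b * n⁻¹ ∈ D) (a : G) :
    χ 1 * ∑ k ∈ KK, ∑ b ∈ D, χ (k * b * k⁻¹ * a) = (KK.card : ℂ) * (χ a * ∑ b ∈ D, χ b) := by
  classical
  have := Fintype.ofFinite G
  have hF : ∀ g : G, ∀ n ∈ N,
      ∑ b ∈ D, χ (g * n * b * (g * n)⁻¹ * a) = ∑ b ∈ D, χ (g * b * g⁻¹ * a) := by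
    intro g n hn
    refine Finset.sum_nbij' (fun b => n * b * n⁻¹) (fun b => n⁻¹ * b * n⁻¹⁻¹) (fun b hb => hD n hn b hb)
      (fun b hb => hD _ (inv_mem hn) b hb) (fun b _ => by group) (fun b _ => by group) fun b _ => ?_
    congr 1
    group
  have h1 := h.sum (fun g => ∑ b ∈ D, χ (g * b * g⁻¹ * a)) hF
  have e : fs (Set.univ : Set G) = Finset.univ := Finset.ext fun x => by simp
  rw [e] at h1
  have h3 : χ 1 * ∑ g : G, ∑ b ∈ D, χ (g * b * g⁻¹ * a) = (Nat.card G : ℂ) * (χ a * ∑ b ∈ D, χ b) := by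
    rw [Finset.sum_comm, Finset.mul_sum, Finset.mul_sum, Finset.mul_sum]
    refine Finset.sum_congr rfl fun b _ => ?_
    rw [Block.irr_sum_conj_mul hχ b a, mul_comm (χ b)]
  have h4 : (Nat.card G : ℂ) ≠ 0 := Nat.cast_ne_zero.2 Nat.card_pos.ne'
  refine mul_left_cancel₀ h4 ?_
  linear_combination (χ 1) * h1 + (KK.card : ℂ) * h3

theorem good_val (h : Hy p H N KK K) (hg : Gd H KK K χ) {k a b : G} (hk : k ∈ KK) (ha : a ∈ H) (hb : b ∈ H)
    (hne : b * a ≠ 1) : χ (k * b * k⁻¹ * a) = χ (b * a) := by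
  rw [← hg (b * a) (mul_mem hb ha) hne k hk _ (h.com k hk b hb)]
  congr 1
  group

theorem idI (h : Hy p H N KK K) (hχ : IsIrrCharacter G χ) (hg : Gd H KK K χ) {a : G} (ha : a ∈ H) :
    χ 1 * (∑ k ∈ KK, χ (k * a⁻¹ * k⁻¹ * a) + (KK.card : ℂ) * (SS H χ - χ 1)) =
      (KK.card : ℂ) * (χ a * SS H χ) := by
  classical
  have hi : a⁻¹ ∈ fs (H : Set G) := mem_fs.2 (inv_mem ha)
  have h1 : SS H χ = ∑ b ∈ fs (H : Set G), χ (b * a) :=
    (Finset.sum_nbij' (fun b => b * a) (fun b => b * a⁻¹)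
      (fun b hb => mem_fs.2 (mul_mem (mem_fs.1 hb) ha))
      (fun b hb => mem_fs.2 (mul_mem (mem_fs.1 hb) (inv_mem ha))) (fun b _ => by group)
      (fun b _ => by group) fun b _ => rfl).symm
  have h2 : SS H χ - χ 1 = ∑ b ∈ (fs (H : Set G)).erase a⁻¹, χ (b * a) := by
    rw [h1, ← Finset.add_sum_erase _ _ hi, inv_mul_cancel, add_sub_cancel_left]
  have h3 := avg h hχ (fs (H : Set G))
    (fun n hn b hb => mem_fs.2 ((mem_normalizer_iff.1 (h.nm hn) b).1 (mem_fs.1 hb))) a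
  rw [SS, ← h3, ← SS, ← nsmul_eq_mul, ← Finset.sum_const, ← Finset.sum_add_distrib]
  congr 1
  refine Finset.sum_congr rfl fun k hk => ?_
  rw [← Finset.add_sum_erase _ _ hi, h2]
  congr 1
  refine Finset.sum_congr rfl fun b hb => ?_
  obtain ⟨hb1, hb2⟩ := Finset.mem_erase.1 hb
  exact (good_val h hg hk ha (mem_fs.1 hb2) fun e => hb1 (eq_inv_of_mul_eq_one_left e)).symm

theorem idD (h : Hy p H N KK K) (hχ : IsIrrCharacter G χ) (hg : Gd H KK K χ) (D : Finset G)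
    (hDH : ∀ b ∈ D, b ∈ H) (hD : ∀ n ∈ N, ∀ b ∈ D, n * b * n⁻¹ ∈ D) {a : G}
    (ha : a ∈ H) (hne : ∀ b ∈ D, b * a ≠ 1) : χ 1 * ∑ b ∈ D, χ (b * a) = χ a * ∑ b ∈ D, χ b := by
  have h1 := avg h hχ D hD a
  have h2 : ∑ k ∈ KK, ∑ b ∈ D, χ (k * b * k⁻¹ * a) = (KK.card : ℂ) * ∑ b ∈ D, χ (b * a) := by
    rw [← nsmul_eq_mul, ← Finset.sum_const]
    exact Finset.sum_congr rfl fun k hk => Finset.sum_congr rfl fun b hb =>
      good_val h hg hk ha (hDH b hb) (hne b hb)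
  have h3 : (KK.card : ℂ) ≠ 0 := Nat.cast_ne_zero.2 h.card_pos.ne'
  refine mul_left_cancel₀ h3 ?_
  rw [h2] at h1
  linear_combination h1

/-- `avg` with `D = {a, a⁻¹}` -/
theorem idP (h : Hy p H N KK K) (hχ : IsIrrCharacter G χ) (hg : Gd H KK K χ) {a : G} (ha : a ∈ H)
    (h2 : a * a ≠ 1) (hD : ∀ n ∈ N, n * a * n⁻¹ = a ∨ n * a * n⁻¹ = a⁻¹) :
    χ 1 * (∑ k ∈ KK, χ (k * a⁻¹ * k⁻¹ * a) + (KK.card : ℂ) * χ (a * a)) =
      (KK.card : ℂ) * (χ a * (χ a + χ a⁻¹)) := by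
  classical
  have hi : a ≠ a⁻¹ := fun e => h2 (mul_eq_one_iff_eq_inv.2 e)
  have h1 := avg h hχ {a, a⁻¹} (fun n hn b hb => by
    simp only [Finset.mem_insert, Finset.mem_singleton] at hb ⊢
    rcases hb with rfl | rfl
    · exact hD n hn
    · rw [← conj_inv]
      rcases hD n hn with e | e
      · exact .inr (by rw [e])
      · exact .inl (by rw [e, inv_inv])) a
  simp only [Finset.sum_pair hi] at h1
  rw [← h1, ← nsmul_eq_mul, ← Finset.sum_const, ← Finset.sum_add_distrib]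
  congr 1
  refine Finset.sum_congr rfl fun k hk => ?_
  rw [good_val h hg hk ha ha h2, add_comm]

theorem SS_ne_zero (h : Hy p H N KK K) (hcf : CoreFree H) (hH : H ≠ ⊥) (hχ : IsIrrCharacter G χ)
    (hg : Gd H KK K χ) (hf : charKer χ = ⊥) : SS H χ ≠ 0 := by
  intro hS
  obtain ⟨a, ha, a1⟩ := (bot_or_exists_ne_one H).resolve_left hH
  have hc := isCharacter_of_isIrr hχ
  have h1 : χ 1 ≠ 0 := fun e => by simpa [e] using (irr_one_re hχ).1
  have e := idI h hχ hg ha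
  rw [hS, mul_zero, mul_zero, mul_eq_zero, or_iff_right h1, zero_sub, mul_neg, add_neg_eq_zero,
    ← nsmul_eq_mul, ← Finset.sum_const] at e
  have e2 := congrArg Complex.re e
  rw [Complex.re_sum, Complex.re_sum] at e2
  obtain ⟨k, hk, ka⟩ := h.exists_noncomm hcf ha a1
  refine (Finset.sum_lt_sum (fun k _ => re_le hc _)
    ⟨k, hk, re_lt_of_not_mem hc fun m => ka ?_⟩).ne e2
  rw [hf, mem_bot] at m
  calc k * a = a * (k * a⁻¹ * k⁻¹ * a)⁻¹ * k := by group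
    _ = _ := by rw [m]; group

theorem conj_eq (h : Hy p H N KK K) (hχ : IsIrrCharacter G χ) (hg : Gd H KK K χ) (hS : SS H χ ≠ 0) {a : G}
    (ha : a ∈ H) : conj (χ a) = χ a := by
  have hc := isCharacter_of_isIrr hχ
  have e := idI h hχ hg ha
  have c1 : conj (χ 1) = χ 1 := by rw [← char_inv hc, inv_one]
  have c2 : conj (SS H χ) = SS H χ := by
    obtain ⟨m, hm⟩ := SS_nat H hc
    rw [hm, map_mul, map_natCast, map_natCast]
  have c3 : conj (∑ k ∈ KK, χ (k * a⁻¹ * k⁻¹ * a)) = ∑ k ∈ KK, χ (k * a⁻¹ * k⁻¹ * a) := by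
    rw [map_sum]
    refine Finset.sum_nbij' (·⁻¹) (·⁻¹) (fun k hk => h.inv k hk)
      (fun k hk => h.inv k hk) (fun _ _ => inv_inv _)
      (fun _ _ => inv_inv _) fun k _ => ?_
    rw [← char_inv hc, ← isClassFunction_of_isCharacter hc _ k⁻¹]
    congr 1
    group
  have e2 := congrArg conj e
  simp only [map_mul, map_add, map_sub, map_natCast, c1, c2, c3] at e2
  exact mul_right_cancel₀ hS (mul_left_cancel₀ (Nat.cast_ne_zero.2 h.card_pos.ne') (e2.symm.trans e))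

open scoped Pointwise in
theorem tb_sum (h : Hy p H N KK K) (g : G) {A : Type*} [AddCommMonoid A] (f : G → A) :
    ∑ x ∈ fs ((K g ⊔ H : Subgroup G) : Set G), f x =
      ∑ s ∈ fs (K g : Set G), ∑ c ∈ fs (H : Set G), f (s * c) := by
  have e : ((K g ⊔ H : Subgroup G) : Set G) = (K g : Set G) * (H : Set G) := by
    rw [← coe_mul_of_right_le_normalizer_left _ _ (h.nk g)]
  rw [← Finset.sum_product']
  symm
  refine Finset.sum_bij (fun x _ => x.1 * x.2) (fun x hx => ?_) (fun x hx y hy exy => ?_) (fun b hb => ?_)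
    fun _ _ => rfl
  · rw [Finset.mem_product, mem_fs, mem_fs] at hx
    rw [mem_fs, e]
    exact Set.mul_mem_mul hx.1 hx.2
  · rw [Finset.mem_product, mem_fs, mem_fs] at hx hy
    have h1 : y.1⁻¹ * x.1 = y.2 * x.2⁻¹ := by
      rw [inv_mul_eq_iff_eq_mul, ← mul_assoc, eq_mul_inv_iff_mul_eq]; exact exy
    have h2 : y.1⁻¹ * x.1 = 1 :=
      h.eq_one ((K g).mul_mem ((K g).inv_mem hy.1) hx.1) (h1 ▸ H.mul_mem hy.2 (H.inv_mem hx.2))
    rw [inv_mul_eq_one] at h2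
    exact Prod.ext h2.symm (mul_left_cancel (a := x.1) (by rw [exy, h2]))
  · rw [mem_fs, e] at hb
    obtain ⟨s, hs, c, hc, rfl⟩ := hb
    exact ⟨(s, c), Finset.mem_product.2 ⟨mem_fs.2 hs, mem_fs.2 hc⟩, rfl⟩

theorem card_sup (h : Hy p H N KK K) (g : G) :
    Nat.card ↥(K g ⊔ H) = Nat.card (K g) * Nat.card H := by
  have := tb_sum h g (fun _ => (1 : ℕ))
  simpa only [Finset.sum_const, card_fs, smul_eq_mul, mul_one] using this

theorem SS_sup (h : Hy p H N KK K) (hg : Gd H KK K χ) {k : G} (hk : k ∈ KK) :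
    SS (K k ⊔ H) χ = SS (K k) χ + (Nat.card (K k) : ℂ) * (SS H χ - χ 1) := by
  classical
  rw [SS, tb_sum h k, SS, ← card_fs, ← nsmul_eq_mul, ← Finset.sum_const, ← Finset.sum_add_distrib]
  refine Finset.sum_congr rfl fun s hs => ?_
  rw [← Finset.add_sum_erase _ _ (mem_fs.2 H.one_mem), mul_one, ← tb_erase]
  refine congrArg _ (Finset.sum_congr rfl fun c hc => ?_)
  rw [Finset.mem_erase, mem_fs] at hc
  exact hg c hc.2 hc.1 k hk s (mem_fs.1 hs)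

theorem re_ge_K (h : Hy p H N KK K) (hχ : IsCharacter G χ) (hg : Gd H KK K χ) {k : G} (hk : k ∈ KK)
    {s : G} (hs : s ∈ K k) :
    2 * ((SS H χ).re - (χ 1).re) - ((Nat.card H : ℝ) - 1) * (χ 1).re ≤ ((Nat.card H : ℝ) - 1) * (χ s).re := by
  obtain ⟨mK, hK⟩ := SS_nat (K k) hχ
  obtain ⟨mT, hT⟩ := SS_nat (K k ⊔ H) hχ
  have h1 : (mT : ℝ) ≤ mK := by exact_mod_cast mu_mono le_sup_left hχ hK hT
  have h2 := SS_sup h hg hk
  rw [hK, hT, card_sup h k, Nat.cast_mul, mul_assoc, ← mul_add] at h2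
  have h3 := congrArg Complex.re (mul_left_cancel₀ (by exact_mod_cast Nat.card_pos.ne') h2)
  simp only [Complex.mul_re, Complex.natCast_re, Complex.natCast_im, mul_zero, sub_zero, Complex.add_re,
    Complex.sub_re] at h3
  have h4 := re_ge hχ hK hs
  have h5 : (1 : ℝ) ≤ Nat.card H := by exact_mod_cast Nat.card_pos
  nlinarith [mul_le_mul_of_nonneg_left h4 (sub_nonneg.2 h5), mul_le_mul_of_nonneg_left h1 (zero_le_one.trans h5)]

theorem SS_le (h : Hy p H N KK K) (hχ : IsIrrCharacter G χ) (hg : Gd H KK K χ) (hk : ¬ H ≤ charKer χ) :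
    (SS H χ).re ≤ 2 * (χ 1).re := by
  classical
  have hc := isCharacter_of_isIrr hχ
  obtain ⟨n0, n1⟩ := irr_one_re hχ
  obtain ⟨m, hm⟩ := SS_nat H hc
  have hS : SS H χ = ((SS H χ).re : ℂ) := by rw [hm]; norm_cast
  have hlt := SS_re_lt hc hk
  have hq : (1 : ℝ) < Nat.card H := by
    exact_mod_cast (one_lt_card_iff_ne_bot H).2 fun e => hk (e ▸ bot_le)
  have hN : (0 : ℝ) < KK.card := by exact_mod_cast h.card_pos
  set n := (χ 1).re
  set S := (SS H χ).re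
  set q : ℝ := ((Nat.card H : ℕ) : ℝ) with hqd
  have each : ∀ a ∈ (fs (H : Set G)).erase 1,
      n * (2 * (S - n) - (q - 1) * n + (q - 1) * (S - n)) ≤ (q - 1) * S * (χ a).re := by
    intro a ha
    have ha' : a ∈ H := mem_fs.1 (Finset.mem_of_mem_erase ha)
    have h1 := congrArg Complex.re (idI h hχ hg ha')
    rw [hS, n1] at h1
    simp only [Complex.mul_re, Complex.natCast_re, Complex.natCast_im, Complex.ofReal_re, Complex.ofReal_im,
      mul_zero, zero_mul, sub_zero, Complex.add_re, Complex.sub_re, Complex.re_sum] at h1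
    have h2 : ∑ _k ∈ KK, (2 * (S - n) - (q - 1) * n) ≤
        ∑ k ∈ KK, (q - 1) * (χ (k * a⁻¹ * k⁻¹ * a)).re := Finset.sum_le_sum fun k hk' =>
      re_ge_K h hc hg hk' (h.com' hk' ha')
    rw [Finset.sum_const, nsmul_eq_mul, ← Finset.mul_sum] at h2
    refine le_of_mul_le_mul_left ?_ hN
    have h3 := mul_le_mul_of_nonneg_left h2 n0.le
    linear_combination h3 + (q - 1) * h1
  have h1 := Finset.sum_le_sum each
  rw [Finset.sum_const, ← Finset.mul_sum, ← Complex.re_sum, tb_erase, Finset.card_erase_of_mem (mem_fs.2 H.one_mem),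
    card_fs, nsmul_eq_mul, Nat.cast_sub Nat.card_pos, Nat.cast_one, Complex.sub_re, mul_assoc] at h1
  have h2 := le_of_mul_le_mul_left h1 (sub_pos.2 hq)
  by_contra! h3
  nlinarith [mul_pos (sub_pos.2 h3) (sub_pos.2 hlt)]

theorem key_dvd (hH : IsPGroup p H) (hM : IsPModular p M) {a : G} (ha : a ∈ H) {n : ℕ} (hn : XC.beta M a = n) :
    Nat.card H ∣ n * (Orb H a).card := by
  have h1 := key1 hM hH (isPGroup_zpowers_iff.mp (isPGroup_zpowers_of_mem hH ha))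
  choose m hm using fun ψ : IrrCharacter G => SS_nat H (irr_isCharacter ψ)
  have hq : Nat.card H ≠ 0 := Nat.card_pos.ne'
  have hq' : (Nat.card H : ℂ) ≠ 0 := Nat.cast_ne_zero.2 hq
  have h2 : ((n * (Orb H a).card : ℕ) : ℂ) / (Nat.card H : ℕ) =
      ∑ ψ ∈ B0 M G, (m ψ : ℂ) * conj ((ψ : G → ℂ) a) := by
    rw [div_eq_iff hq', Finset.sum_mul, Nat.cast_mul, ← Complex.ofReal_natCast n, ← hn, ← h1]
    refine Finset.sum_congr rfl fun ψ _ => ?_
    rw [hm]; ring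
  exact nat_dvd_of_isIntegral_div hq (h2 ▸ IsIntegral.sum _ fun ψ _ =>
    (isIntegral_natCast _).mul (isIntegral_conj (isIntegral_char (irr_isCharacter ψ) a)))

theorem key2 (hb : Bk p M H N KK K) {a : G} (ha : a ∈ H) (ha1 : a ≠ 1) :
    ∑ ψ ∈ B0 M G, Complex.normSq ((ψ : G → ℂ) a) * ((SS H (ψ : G → ℂ)).re / ((ψ : G → ℂ) 1).re) =
      XC.beta M a * ((Orb H a).card : ℝ) := by
  have hd := key_dvd_ord (hb.hy.pElt ha) ha1
  have hn : (KK.card : ℂ) ≠ 0 := Nat.cast_ne_zero.2 hb.hy.card_pos.ne'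
  have h1 := key1 hb.modu hb.hy.pg (hb.hy.pElt ha)
  have h2 := orth_reg (s := 1) hb.modu hd (by rw [orderOf_one]; exact hp.out.one_lt.ne' ∘ Nat.dvd_one.1)
  have h3 : ∑ ψ ∈ B0 M G, (∑ k ∈ KK, (ψ : G → ℂ) (k * a⁻¹ * k⁻¹ * a)) * conj ((ψ : G → ℂ) a) = 0 := by
    simp only [Finset.sum_mul]
    rw [Finset.sum_comm]
    exact Finset.sum_eq_zero fun k hk => orth_reg hb.modu hd (hb.hy.not_dvd (hb.hy.com' hk ha))
  apply Complex.ofReal_injective
  apply mul_left_cancel₀ hn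
  rw [Complex.ofReal_mul, Complex.ofReal_natCast, ← h1, Complex.ofReal_sum, Finset.mul_sum]
  have h4 : ∀ ψ ∈ B0 M G, (KK.card : ℂ) * ((Complex.normSq ((ψ : G → ℂ) a) *
      ((SS H (ψ : G → ℂ)).re / ((ψ : G → ℂ) 1).re) : ℝ) : ℂ) =
      (∑ k ∈ KK, (ψ : G → ℂ) (k * a⁻¹ * k⁻¹ * a)) * conj ((ψ : G → ℂ) a) +
        (KK.card : ℂ) * (SS H (ψ : G → ℂ) * conj ((ψ : G → ℂ) a)) -
        (KK.card : ℂ) * ((ψ : G → ℂ) 1 * conj ((ψ : G → ℂ) a)) := fun ψ hψ => by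
    have e := idI hb.hy ψ.2 (hb.good ψ hψ) ha
    obtain ⟨m, hm⟩ := SS_nat H (irr_isCharacter ψ)
    obtain ⟨k1, k2⟩ := irr_one_re ψ.2
    have k3 : (((SS H (ψ : G → ℂ)).re : ℝ) : ℂ) = SS H (ψ : G → ℂ) := by
      rw [hm, ← Nat.cast_mul, Complex.natCast_re, Complex.ofReal_natCast]
    have k4 : (ψ : G → ℂ) 1 ≠ 0 := by
      rw [k2]
      exact Complex.ofReal_ne_zero.2 k1.ne'
    rw [Complex.ofReal_mul, Complex.ofReal_div, ← Complex.mul_conj, k3, ← k2]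
    apply mul_left_cancel₀ k4
    field_simp
    linear_combination (-conj ((ψ : G → ℂ) a)) * e
  rw [Finset.sum_congr rfl h4, Finset.sum_sub_distrib, Finset.sum_add_distrib, h3, ← Finset.mul_sum,
    ← Finset.mul_sum, h2, zero_add, mul_zero, sub_zero]

theorem isConj_inv (hb : Bk p M H N KK K) {a : G} (ha : a ∈ H) (ha1 : a ≠ 1) : IsConj a⁻¹ a := by
  by_contra hn
  have hH : H ≠ ⊥ := fun e => ha1 (mem_bot.1 (e ▸ ha))
  have h0 := orth hb.modu (hb.hy.pElt ha) (hb.hy.pElt (inv_mem ha)) hn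
  have h1 : ∑ ψ ∈ B0 M G, (ψ : G → ℂ) a⁻¹ * conj ((ψ : G → ℂ) a) =
      ∑ ψ ∈ B0 M G, (ψ : G → ℂ) a * conj ((ψ : G → ℂ) a) := Finset.sum_congr rfl fun ψ hψ => by
    by_cases e : ψ = irrOne G
    · rw [e]; rfl
    · rw [char_inv (irr_isCharacter ψ), conj_eq hb.hy ψ.2 (hb.good ψ hψ)
        (SS_ne_zero hb.hy hb.cf hH ψ.2 (hb.good ψ hψ) (hb.faith ψ hψ e)) ha]
  obtain ⟨n, hn0, e⟩ := beta_nat hb.modu a
  rw [h1, orth_conj (IsConj.refl a), e] at h0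
  exact hn0.ne' (by exact_mod_cast h0)

/-- `β |O| ≤ q + c (β - 1)` when every `x_ψ ≤ c` -/
theorem key3 (hb : Bk p M H N KK K) {a : G} (ha : a ∈ H) (ha1 : a ≠ 1) {c : ℝ}
    (hx : ∀ ψ ∈ B0 M G, ψ ≠ irrOne G → (SS H (ψ : G → ℂ)).re ≤ c * ((ψ : G → ℂ) 1).re) :
    XC.beta M a * ((Orb H a).card : ℝ) ≤ Nat.card H + c * (XC.beta M a - 1) := by
  classical
  have h1 := key2 hb ha ha1
  have hβ : XC.beta M a = 1 + ∑ ψ ∈ (B0 M G).erase (irrOne G), Complex.normSq ((ψ : G → ℂ) a) := by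
    rw [XC.beta, ← Finset.add_sum_erase _ _ (irrOne_mem_B0 hb.modu), irrOne_apply, map_one]
  have hS : (SS H (irrOne G : G → ℂ)).re = Nat.card H := by
    simp only [SS, irrOne_apply, Finset.sum_const, card_fs, nsmul_eq_mul, mul_one, Complex.natCast_re]
  rw [← Finset.add_sum_erase _ _ (irrOne_mem_B0 hb.modu), hS, irrOne_apply, irrOne_apply, map_one, Complex.one_re,
    div_one, one_mul] at h1
  have h3 : ∑ ψ ∈ (B0 M G).erase (irrOne G),
      Complex.normSq ((ψ : G → ℂ) a) * ((SS H (ψ : G → ℂ)).re / ((ψ : G → ℂ) 1).re) ≤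
      (∑ ψ ∈ (B0 M G).erase (irrOne G), Complex.normSq ((ψ : G → ℂ) a)) * c := by
    rw [Finset.sum_mul]
    refine Finset.sum_le_sum fun ψ hψ => mul_le_mul_of_nonneg_left ?_ (Complex.normSq_nonneg _)
    obtain ⟨e, hψ⟩ := Finset.mem_erase.1 hψ
    exact (div_le_iff₀ (irr_one_re ψ.2).1).2 (hx ψ hψ e)
  rw [← h1, hβ, add_sub_cancel_left, mul_comm c]
  linarith

theorem Bk.SS_le (hb : Bk p M H N KK K) (hH : H ≠ ⊥) {ψ : IrrCharacter G} (hψ : ψ ∈ B0 M G)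
    (e : ψ ≠ irrOne G) : (SS H (ψ : G → ℂ)).re ≤ 2 * ((ψ : G → ℂ) 1).re :=
  SP2.SS_le hb.hy ψ.2 (hb.good ψ hψ) fun h => hH (le_bot_iff.1 (hb.faith ψ hψ e ▸ h))

end CfsgLib.SP2
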