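import Mathlib
import Cfsg.Agent.Lib.SP2.CH

/-! SP2/END: the endgames of the character-theoretic argument. -/

set_option autoImplicit false
set_option linter.unusedSectionVars false
set_option linter.unusedVariables false

namespace CfsgLib.SP2

open Subgroup Cfsg CfsgLib.PComp CfsgLib.Tech CfsgLib.Char CfsgLib.XC
open scoped ComplexConjugate

variable {G : Type*} [Group G] [Finite G] {p : ℕ} [hp : Fact p.Prime] {M : Ideal AlgInt}
  {H N : Subgroup G} {KK : Finset G} {K : G → Subgroup G} {χ : G → ℂ}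

theorem beta_ge (hH : IsPGroup p H) (hM : IsPModular p M) {a : G} (ha : a ∈ H)
    (hO : ¬ p ∣ (Orb H a).card) : (Nat.card H : ℝ) ≤ XC.beta M a := by
  obtain ⟨n, n0, hn⟩ := beta_nat hM a
  have h1 := key_dvd hH hM ha hn
  obtain ⟨j, hj⟩ := hH.exists_card_eq
  rw [hj] at h1
  have h2 := (((Nat.Prime.coprime_iff_not_dvd hp.out).2 hO).pow_left j).dvd_of_dvd_mul_right h1
  rw [hn, hj]
  exact_mod_cast Nat.le_of_dvd n0 h2

theorem not_dvd_Orb (h : Hy p H N KK K) (P : Sylow p G) (hN : (P : Subgroup G) ≤ N) {a : G} (ha : a ∈ H)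
    (hP : (P : Subgroup G) ≤ centralizer ({a} : Set G)) : ¬ p ∣ (Orb H a).card := by
  classical
  let _ : MulAction N G := MulAction.compHom G ((MulAut.conj : G →* MulAut G).comp N.subtype)
  have e1 : ∀ (n : N) (x : G), n • x = n * x * (n : G)⁻¹ := fun _ _ => rfl
  have e2 : (Orb H a : Set G) = MulAction.orbit N a := by
    ext c
    rw [Finset.mem_coe, mem_Orb, MulAction.mem_orbit_iff]
    constructor
    · rintro ⟨hc, hca⟩
      obtain ⟨n, hn, e⟩ := h.fusion ha hc hca.symm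
      exact ⟨⟨n, hn⟩, e⟩
    · rintro ⟨n, rfl⟩
      rw [e1]
      exact ⟨conj_mem_of_mem_normalizer (h.nm n.2) ha, (isConj_iff.2 ⟨(n : G), rfl⟩).symm⟩
  have e3 : (Orb H a).card = (MulAction.stabilizer N a).index := by
    rw [MulAction.index_stabilizer, ← e2, Set.ncard_coe_finset]
  have e4 : (P : Subgroup G).subgroupOf N ≤ MulAction.stabilizer N a := fun n hn => by
    rw [MulAction.mem_stabilizer_iff, e1, mul_inv_eq_iff_eq_mul]
    exact mem_centralizer_singleton_iff.1 (hP hn)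
  rw [e3]
  exact fun hd => P.not_dvd_index ((hd.trans (index_dvd_of_le e4)).trans
    (Dvd.intro _ (relIndex_mul_index hN)))

theorem card_Orb_le (hb : Bk p M H N KK K) {a : G} (ha : a ∈ H) (ha1 : a ≠ 1)
    (hO : ¬ p ∣ (Orb H a).card) : (Orb H a).card ≤ 2 := by
  have hH : H ≠ ⊥ := fun e => ha1 (mem_bot.1 (e ▸ ha))
  have h1 := key3 hb ha ha1 fun ψ hψ e => hb.SS_le hH hψ e
  have h2 := beta_ge hb.hy.pg hb.modu ha hO
  have h0 : (0 : ℝ) < Nat.card H := by exact_mod_cast Nat.card_pos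
  by_contra h3
  have h4 : (3 : ℝ) ≤ (Orb H a).card := by exact_mod_cast (not_le.1 h3)
  nlinarith

theorem Orb_eq (hb : Bk p M H N KK K) {a : G} (ha : a ∈ H) (ha1 : a ≠ 1)
    (hO : ¬ p ∣ (Orb H a).card) {c : G} (hc : c ∈ H) (hca : IsConj c a) : c = a ∨ c = a⁻¹ := by
  classical
  have h1 := card_Orb_le hb ha ha1 hO
  by_contra hn
  obtain ⟨n1, n2⟩ := not_or.1 hn
  by_cases hi : a = a⁻¹
  · have h2 : orderOf a = 2 := orderOf_eq_prime (by rw [sq, mul_eq_one_iff_eq_inv]; exact hi) ha1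
    have h3 : p = 2 := (Nat.prime_dvd_prime_iff_eq hp.out Nat.prime_two).1
      (h2 ▸ key_dvd_ord (hb.hy.pElt ha) ha1)
    have sub : ({c, a} : Finset G) ⊆ Orb H a := by
      intro x hx
      simp only [Finset.mem_insert, Finset.mem_singleton] at hx
      rcases hx with rfl | rfl
      · exact mem_Orb.2 ⟨hc, hca⟩
      · exact mem_Orb.2 ⟨ha, IsConj.refl _⟩
    have h4 := Finset.card_le_card sub
    rw [Finset.card_pair n1] at h4
    exact hO (by rw [h3, le_antisymm h1 h4])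
  · have sub : ({a, a⁻¹, c} : Finset G) ⊆ Orb H a := by
      intro x hx
      simp only [Finset.mem_insert, Finset.mem_singleton] at hx
      rcases hx with rfl | rfl | rfl
      · exact mem_Orb.2 ⟨ha, IsConj.refl _⟩
      · exact mem_Orb.2 ⟨inv_mem ha, isConj_inv hb ha ha1⟩
      · exact mem_Orb.2 ⟨hc, hca⟩
    have h4 : ({a, a⁻¹, c} : Finset G).card = 3 := Finset.card_eq_three.2
      ⟨a, a⁻¹, c, hi, Ne.symm n1, Ne.symm n2, rfl⟩
    have := (Finset.card_le_card sub).trans h1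
    omega

theorem arith5 {t u v w X : ℝ} (h1 : u = 2 * t ^ 2 - 1 + X * (1 - t)) (h2 : v + t = 2 * t * u)
    (h3 : w + u = 2 * t * v) (h4 : w = 2 * u ^ 2 - 1 + X * (1 - u)) (hX : X ≠ 0) (ht : t ≠ 1) (hX2 : X ≤ 2) :
    X ≤ 1 := by
  have e1 : X * (u * (2 * t - 1) - t) = 0 := by
    have hv : v = 2 * t * u - t := by linarith
    have hw : w = 2 * t * v - u := by linarith
    rw [hv] at hw
    rw [hw] at h4
    linear_combination h4 + (2 * u - 1) * h1
  have e2 : u * (2 * t - 1) - t = 0 := (mul_eq_zero.1 e1).resolve_left hX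
  have e3 : (t - 1) * (4 * t ^ 2 + 2 * t * (1 - X) + X - 1) = 0 := by
    rw [h1] at e2
    linear_combination e2
  have e4 := (mul_eq_zero.1 e3).resolve_left (sub_ne_zero.2 ht)
  by_contra h5
  push Not at h5
  nlinarith [sq_nonneg (4 * t + 1 - X), mul_pos (sub_pos.2 h5) (show (0 : ℝ) < 5 - X by linarith)]

theorem case5 (hb : Bk p M H N KK K) {a : G} (ha : a ∈ H) (h2 : a ^ 2 ≠ 1) (h3 : a ^ 3 ≠ 1) (h4 : a ^ 4 ≠ 1)
    (h6 : a ^ 6 ≠ 1) (hD : ∀ n ∈ N, n * a * n⁻¹ = a ∨ n * a * n⁻¹ = a⁻¹) {ψ : IrrCharacter G}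
    (hψ : ψ ∈ B0 M G) (e : ψ ≠ irrOne G) : (SS H (ψ : G → ℂ)).re ≤ 1 * ((ψ : G → ℂ) 1).re := by
  classical
  have ha1 : a ≠ 1 := fun e => h2 (by rw [e, one_pow])
  have hH : H ≠ ⊥ := fun e => ha1 (mem_bot.1 (e ▸ ha))
  have hg := hb.good ψ hψ
  have hf := hb.faith ψ hψ e
  have hc := irr_isCharacter ψ
  have hle := hb.SS_le hH hψ e
  have hS := SS_ne_zero hb.hy hb.cf hH ψ.2 hg hf
  have hi : IsIrrCharacter G (ψ : G → ℂ) := ψ.2
  generalize (ψ : G → ℂ) = χ at *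
  obtain ⟨n0, n1⟩ := irr_one_re hi
  have hr : ∀ b ∈ H, χ b = ((χ b).re : ℂ) := fun b hb' =>
    (Complex.conj_eq_iff_re.1 (conj_eq hb.hy hi hg hS hb')).symm
  have hv : ∀ b ∈ H, χ b⁻¹ = χ b := fun b hb' => by rw [char_inv hc, conj_eq hb.hy hi hg hS hb']
  have hSr : SS H χ = ((SS H χ).re : ℂ) := by
    obtain ⟨m, hm⟩ := SS_nat H hc
    rw [hm]; norm_cast
  have hk : (KK.card : ℂ) ≠ 0 := Nat.cast_ne_zero.2 hb.hy.card_pos.ne'
  have hDk : ∀ j : ℕ, ∀ n ∈ N, n * a ^ j * n⁻¹ = a ^ j ∨ n * a ^ j * n⁻¹ = (a ^ j)⁻¹ := fun j n hn => by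
    rw [← conj_pow]
    rcases hD n hn with e | e
    · exact .inl (by rw [e])
    · exact .inr (by rw [e, inv_pow])
  have E1 : ∀ b ∈ H, b * b ≠ 1 → (∀ n ∈ N, n * b * n⁻¹ = b ∨ n * b * n⁻¹ = b⁻¹) →
      χ 1 * (SS H χ - χ 1 - χ (b * b)) = χ b * (SS H χ - 2 * χ b) := fun b hb' b2 hd => by
    have e1 := idI hb.hy hi hg hb'
    have e2 := idP hb.hy hi hg hb' b2 hd
    rw [hv b hb'] at e2
    refine mul_left_cancel₀ hk ?_
    linear_combination e1 - e2
  have E2 : ∀ b ∈ H, b * b ≠ 1 → b * a ≠ 1 → b⁻¹ * a ≠ 1 → (∀ n ∈ N, n * b * n⁻¹ = b ∨ n * b * n⁻¹ = b⁻¹) →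
      χ 1 * (χ (b * a) + χ (b⁻¹ * a)) = χ a * (2 * χ b) := fun b hb' b2 b3 b4 hd => by
    have hne : b ≠ b⁻¹ := fun e => b2 (mul_eq_one_iff_eq_inv.2 e)
    have e1 := idD hb.hy hi hg {b, b⁻¹} (fun x hx => by
      simp only [Finset.mem_insert, Finset.mem_singleton] at hx
      rcases hx with rfl | rfl
      exacts [hb', inv_mem hb']) (fun n hn x hx => by
      simp only [Finset.mem_insert, Finset.mem_singleton] at hx ⊢
      rcases hx with rfl | rfl
      · exact hd n hn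
      · rw [← conj_inv]
        rcases hd n hn with e | e
        · exact .inr (by rw [e])
        · exact .inl (by rw [e, inv_inv])) ha (fun x hx => by
      simp only [Finset.mem_insert, Finset.mem_singleton] at hx
      rcases hx with rfl | rfl
      exacts [b3, b4])
    rw [Finset.sum_pair hne, Finset.sum_pair hne, hv b hb'] at e1
    linear_combination e1
  have q1 : a * a = a ^ 2 := (sq a).symm
  have q2 : a ^ 2 * a ^ 2 = a ^ 4 := by group
  have q3 : a ^ 2 * a = a ^ 3 := by group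
  have q4 : (a ^ 2)⁻¹ * a = a⁻¹ := by group
  have q5 : a ^ 3 * a ^ 3 = a ^ 6 := by group
  have q6 : a ^ 3 * a = a ^ 4 := by group
  have q7 : (a ^ 3)⁻¹ * a = (a ^ 2)⁻¹ := by group
  have f1 := E1 a ha (q1 ▸ h2) hD
  have f2 := E1 (a ^ 2) (pow_mem ha 2) (q2 ▸ h4) (hDk 2)
  have f3 := E2 (a ^ 2) (pow_mem ha 2) (q2 ▸ h4) (q3 ▸ h3) (q4 ▸ inv_ne_one.2 ha1) (hDk 2)
  have f4 := E2 (a ^ 3) (pow_mem ha 3) (q5 ▸ h6) (q6 ▸ h4) (q7 ▸ inv_ne_one.2 h2) (hDk 3)
  rw [q1] at f1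
  rw [q2] at f2
  rw [q3, q4, hv a ha] at f3
  rw [q6, q7, hv _ (pow_mem ha 2)] at f4
  have hlt : (χ a).re < (χ 1).re := re_lt_of_not_mem hc (by rw [hf, mem_bot]; exact ha1)
  have hS0 : (SS H χ).re ≠ 0 := fun e => hS (by rw [hSr, e, Complex.ofReal_zero])
  rw [hr a ha, hr _ (pow_mem ha 2), n1, hSr] at f1
  rw [hr _ (pow_mem ha 2), hr _ (pow_mem ha 4), n1, hSr] at f2
  rw [hr a ha, hr _ (pow_mem ha 2), hr _ (pow_mem ha 3), n1] at f3
  rw [hr a ha, hr _ (pow_mem ha 2), hr _ (pow_mem ha 3), hr _ (pow_mem ha 4), n1] at f4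
  generalize (χ 1).re = n at *
  generalize (SS H χ).re = S at *
  generalize (χ a).re = t at *
  generalize (χ (a ^ 2)).re = u at *
  generalize (χ (a ^ 3)).re = v at *
  generalize (χ (a ^ 4)).re = w at *
  have g1 : n * (S - n - u) = t * (S - 2 * t) := by exact_mod_cast f1
  have g2 : n * (S - n - w) = u * (S - 2 * u) := by exact_mod_cast f2
  have g3 : n * (v + t) = t * (2 * u) := by exact_mod_cast f3
  have g4 : n * (w + u) = t * (2 * v) := by exact_mod_cast f4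
  have := arith5 (t := t / n) (u := u / n) (v := v / n) (w := w / n) (X := S / n)
    (by field_simp; linear_combination -g1) (by field_simp; linear_combination g3)
    (by field_simp; linear_combination g4) (by field_simp; linear_combination -g2)
    (div_ne_zero hS0 n0.ne') (fun e => hlt.ne (by rwa [div_eq_one_iff_eq n0.ne'] at e))
    ((div_le_iff₀ n0).2 hle)
  exact (div_le_iff₀ n0).1 this

theorem case3 [DecidableEq G] (hb : Bk p M H N KK K) {a : G} (ha : a ∈ H) (ha1 : a ≠ 1) (hi : a ≠ a⁻¹)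
    (e1 : fs (H : Set G) = {1, a, a⁻¹}) (e2 : Orb H a = {a, a⁻¹}) : False := by
  have : DecidableEq (IrrCharacter G) := Classical.decEq _
  have hH : H ≠ ⊥ := fun e => ha1 (mem_bot.1 (e ▸ ha))
  have hpa : p ∣ orderOf a := key_dvd_ord (hb.hy.pElt ha) ha1
  have hc := isConj_inv hb ha ha1
  have n1 : (1 : G) ∉ ({a, a⁻¹} : Finset G) := by simp [ha1.symm, ha1]
  have n2 : a ∉ ({a⁻¹} : Finset G) := by simpa using hi
  have e3 : Nat.card H = 3 := by rw [← card_fs, e1, Finset.card_insert_of_notMem n1, Finset.card_pair hi]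
  have e4 : ∀ ψ : IrrCharacter G, SS H (ψ : G → ℂ) = (ψ : G → ℂ) 1 + 2 * (ψ : G → ℂ) a := fun ψ => by
    obtain ⟨c, hc⟩ := isConj_iff.1 hc
    rw [SS, e1, Finset.sum_insert n1, Finset.sum_pair hi, two_mul]
    congr 2
    conv_rhs => rw [← hc]
    obtain ⟨_, n, ρ, -, rfl⟩ := ψ
    exact (ρ.char_conj _ _).symm
  obtain ⟨ψ₀, m0, m1, m2⟩ := exists_neg hb.modu hpa
  obtain ⟨m, hm⟩ := SS_nat H (irr_isCharacter ψ₀)
  obtain ⟨n, hn⟩ := exists_char_one_eq_nat (irr_isCharacter ψ₀)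
  obtain ⟨t, ht⟩ := exists_int_of_isIntegral_of_rat (isIntegral_char (irr_isCharacter ψ₀) a) ⟨(3 * m - n) / 2, by
    rw [e4, e3, hn] at hm
    push_cast at hm ⊢
    linear_combination hm / 2⟩
  have k1 := key2 hb ha ha1
  rw [e2, Finset.card_pair hi, XC.beta, Finset.sum_mul, ← sub_eq_zero, ← Finset.sum_sub_distrib,
    ← Finset.add_sum_erase _ _ (irrOne_mem_B0 hb.modu), ← Finset.add_sum_erase _ _ (Finset.mem_erase.2 ⟨m1, m0⟩)] at k1
  have k2 : ∑ ψ ∈ ((B0 M G).erase (irrOne G)).erase ψ₀, (Complex.normSq ((ψ : G → ℂ) a) *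
      ((SS H (ψ : G → ℂ)).re / ((ψ : G → ℂ) 1).re) - Complex.normSq ((ψ : G → ℂ) a) * ((2 : ℕ) : ℝ)) ≤ 0 :=
    Finset.sum_nonpos fun ψ hψ => by
      obtain ⟨a1, a2⟩ := Finset.mem_erase.1 (Finset.mem_of_mem_erase hψ)
      refine sub_nonpos.2 (mul_le_mul_of_nonneg_left ((div_le_iff₀ (irr_one_re ψ.2).1).2 ?_) (Complex.normSq_nonneg _))
      exact_mod_cast hb.SS_le hH a2 a1
  have k3 := (irr_one_re ψ₀.2).1
  have k4 : (SS H (ψ₀ : G → ℂ)).re / ((ψ₀ : G → ℂ) 1).re < 1 := (div_lt_one k3).2 (by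
    rw [e4]; simp only [Complex.add_re, Complex.mul_re, Complex.re_ofNat, Complex.im_ofNat]; linarith)
  have k5 : 1 ≤ Complex.normSq ((ψ₀ : G → ℂ) a) := by
    rw [ht] at m2 ⊢
    have h2 : t < 0 := by simpa using m2
    rw [Complex.normSq_intCast]
    exact_mod_cast (by nlinarith : 1 ≤ t * t)
  rw [e4 (irrOne G)] at k1
  simp only [irrOne_apply] at k1
  norm_num at k1 k2
  nlinarith

theorem case_odd (hb : Bk p M H N KK K) (hp2 : p ≠ 2) {a : G} (ha : a ∈ H) (ho : orderOf a = p)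
    (hO : ¬ p ∣ (Orb H a).card) : False := by
  classical
  have hpow : ∀ j : ℕ, a ^ j = 1 ↔ p ∣ j := fun j => by rw [← ho, orderOf_dvd_iff_pow_eq_one]
  have ha1 : a ≠ 1 := fun e => hp.out.one_lt.ne' (Nat.dvd_one.1 ((hpow 1).1 (by rw [e, one_pow])))
  have n2 : ¬ p ∣ 2 := fun h => hp2 ((Nat.prime_dvd_prime_iff_eq hp.out Nat.prime_two).1 h)
  have hi : a ≠ a⁻¹ := fun e => n2 ((hpow 2).1 (by rw [sq]; exact mul_eq_one_iff_eq_inv.2 e))
  have hD : ∀ n ∈ N, n * a * n⁻¹ = a ∨ n * a * n⁻¹ = a⁻¹ := fun n hn =>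
    Orb_eq hb ha ha1 hO (conj_mem_of_mem_normalizer (hb.hy.nm hn) ha) (isConj_iff.2 ⟨n, rfl⟩).symm
  have hN : N ≤ normalizer (zpowers a : Set G) := fun n hn => mem_normalizer_of_cj_le (by
    rw [cj_zpowers, zpowers_le]
    rcases hD n hn with e | e <;> rw [e]
    exacts [mem_zpowers a, inv_mem (mem_zpowers a)])
  have hb' := hb.mono (zpowers_le.2 ha) hN
  have ma := mem_zpowers a
  have e2 : Orb (zpowers a) a = {a, a⁻¹} := Finset.ext fun b => by
    simp only [mem_Orb, Finset.mem_insert, Finset.mem_singleton]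
    refine ⟨fun h => Orb_eq hb ha ha1 hO (zpowers_le.2 ha h.1) h.2, ?_⟩
    rintro (rfl | rfl)
    exacts [⟨ma, IsConj.refl _⟩, ⟨inv_mem ma, isConj_inv hb ha ha1⟩]
  by_cases hp3 : p = 3
  · refine case3 hb' ma ha1 hi (Finset.eq_of_subset_of_card_le (fun b hb => ?_) ?_).symm e2
    · simp only [Finset.mem_insert, Finset.mem_singleton] at hb
      rcases hb with rfl | rfl | rfl
      exacts [mem_fs.2 (one_mem _), mem_fs.2 ma, mem_fs.2 (inv_mem ma)]
    · rw [card_fs, Nat.card_zpowers, ho, hp3, Finset.card_insert_of_notMem (by simp [ha1.symm, ha1]),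
        Finset.card_pair hi]
  · have n3 : ¬ p ∣ 3 := fun h => hp3 ((Nat.prime_dvd_prime_iff_eq hp.out Nat.prime_three).1 h)
    have n4 : ¬ p ∣ 4 := fun h => ((Nat.Prime.dvd_mul hp.out (m := 2) (n := 2)).1 h).elim n2 n2
    have n6 : ¬ p ∣ 6 := fun h => ((Nat.Prime.dvd_mul hp.out (m := 2) (n := 3)).1 h).elim n2 n3
    have h1 := key3 hb' ma ha1 fun ψ hψ e => case5 hb' ma (mt (hpow 2).1 n2) (mt (hpow 3).1 n3)
      (mt (hpow 4).1 n4) (mt (hpow 6).1 n6) hD hψ e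
    have h2 := beta_ge hb'.hy.pg hb.modu ma (by rw [e2, Finset.card_pair hi]; exact n2)
    rw [e2, Finset.card_pair hi] at h1
    push_cast at h1
    linarith

end CfsgLib.SP2
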