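import Mathlib
import Cfsg.Agent.Lib.SP2.Defs

/-! SP2/G1: p-central elements, pairs. -/

set_option autoImplicit false
set_option linter.unusedSectionVars false
set_option linter.unusedVariables false

namespace CfsgLib.SP2

open Subgroup Cfsg CfsgLib.PComp CfsgLib.Tech CfsgLib.Char CfsgLib.XC
open scoped ComplexConjugate

variable {G : Type*} [Group G] [Finite G] {p : ℕ} [hp : Fact p.Prime]

/-- `P ↦ g • P` (`coe_smul_sylow`, `cj_centralizer_singleton`). -/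
theorem conj_mem_DZ {d : G} (hd : d ∈ DZ p G) (g : G) : g * d * g⁻¹ ∈ DZ p G := by
  obtain ⟨P, h1, h2⟩ := hd
  refine ⟨g • P, ?_, ?_⟩
  · rw [coe_smul_sylow]; exact conj_mem_cj.2 h1
  · rw [coe_smul_sylow, ← cj_centralizer_singleton]; exact cj_mono g h2

theorem DZ_pElt {d : G} (hd : d ∈ DZ p G) : ∃ k : ℕ, orderOf d = p ^ k := by
  obtain ⟨P, h1, -⟩ := hd
  exact isPGroup_zpowers_iff.1 (isPGroup_zpowers_of_mem P.isPGroup' h1)

/-- `P₀ ≤ C(d)` is Sylow in `C(d)` (`IsSylowIn.of_sylow`); conjugate `A` into it inside `C(d)`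
(`IsSylowIn.exists_cj_le`) and take `P = g⁻¹ • P₀`. -/
theorem exists_sylow_ge {d : G} (hd : d ∈ DZ p G) {A : Subgroup G} (hA : IsPGroup p A)
    (hAd : A ≤ centralizer ({d} : Set G)) :
    ∃ P : Sylow p G, d ∈ (P : Subgroup G) ∧ (P : Subgroup G) ≤ centralizer ({d} : Set G) ∧ A ≤ P := by
  obtain ⟨P, h1, h2⟩ := hd
  obtain ⟨g, hg, hle⟩ := (IsSylowIn.of_sylow P h2).exists_cj_le hA hAd
  have e : g⁻¹ * d * g⁻¹⁻¹ = d := by
    have := mem_centralizer_singleton_iff.1 hg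
    rw [inv_inv, mul_assoc, ← this, inv_mul_cancel_left]
  refine ⟨g⁻¹ • P, ?_, ?_, ?_⟩
  · rw [coe_smul_sylow]
    have := (conj_mem_cj (g := g⁻¹)).2 h1
    rwa [e] at this
  · rw [coe_smul_sylow]
    have := cj_mono g⁻¹ h2
    rwa [cj_centralizer_singleton, e] at this
  · rw [coe_smul_sylow]
    have := cj_mono g⁻¹ hle
    rwa [cj_inv_cj] at this

/-- `T = P₁ ⊔ P₂` is `p`-solvable; in `T ⧸ O_{p'}(T)` the core `O_p` lies in the images of both Sylow subgroups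
(`IsSylowIn.of_sylow .. |>.toSylow`, `Sylow.mapSurjective`, `PLocal.PSolv.pCore_le_sylow`), so the image of `d₁`
centralizes `O_p`, lies in it (`PLocal.PSolv.centralizer_pCore_le`, `pPrimeCore_quotient`), hence in the image of `P₂`,
which commutes with the image of `d₂`. See `Fis.Hyp.pair` (Lib/Fis/Loc.lean) for the same pattern. -/
theorem pair_comm (h : Pair p G) (P₁ P₂ : Sylow p G) {d₁ d₂ : G} (m₁ : d₁ ∈ (P₁ : Subgroup G))
    (c₁ : (P₁ : Subgroup G) ≤ centralizer ({d₁} : Set G)) (m₂ : d₂ ∈ (P₂ : Subgroup G))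
    (c₂ : (P₂ : Subgroup G) ≤ centralizer ({d₂} : Set G)) :
    d₁ * d₂ * d₁⁻¹ * d₂⁻¹ ∈ opOf p ((P₁ : Subgroup G) ⊔ (P₂ : Subgroup G)) := by
  have hH := h _ _ P₁.isPGroup' P₂.isPGroup'
  set T := (P₁ : Subgroup G) ⊔ (P₂ : Subgroup G) with hT
  have l1 : (P₁ : Subgroup G) ≤ T := le_sup_left
  have l2 : (P₂ : Subgroup G) ≤ T := le_sup_right
  let f := QuotientGroup.mk' (pPrimeCore p T)
  have hf : Function.Surjective f := QuotientGroup.mk'_surjective _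
  have h3 : ∀ (P : Sylow p G) (l : (P : Subgroup G) ≤ T), ∀ y ∈ pCore p (T ⧸ pPrimeCore p T),
      ∃ x : T, (x : G) ∈ (P : Subgroup G) ∧ f x = y := fun P l y hy => by
    obtain ⟨x, hx, e⟩ := PLocal.PSolv.pCore_le_sylow ((IsSylowIn.of_sylow P l).toSylow.mapSurjective hf) hy
    exact ⟨x, hx, e⟩
  have h4 : f ⟨d₁, l1 m₁⟩ ∈ pCore p (T ⧸ pPrimeCore p T) := by
    refine PLocal.PSolv.centralizer_pCore_le (PLocal.PSolv.quotient hH _) PLocal.PSolv.pPrimeCore_quotient ?_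
    intro a ha
    obtain ⟨x, hx, rfl⟩ := h3 P₁ l1 a ha
    rw [← map_mul, ← map_mul]
    congr 1
    exact Subtype.ext (mem_centralizer_singleton_iff.1 (c₁ hx))
  obtain ⟨x, hx, e⟩ := h3 P₂ l2 _ h4
  have h5 : (⟨d₁, l1 m₁⟩ * ⟨d₂, l2 m₂⟩ * (⟨d₁, l1 m₁⟩ : T)⁻¹ * (⟨d₂, l2 m₂⟩ : T)⁻¹ : T) ∈ pPrimeCore p T := by
    rw [← QuotientGroup.ker_mk' (pPrimeCore p T), MonoidHom.mem_ker]
    change f _ = 1
    rw [map_mul, map_mul, map_mul, map_inv, map_inv, ← e, ← map_mul]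
    have : x * ⟨d₂, l2 m₂⟩ = ⟨d₂, l2 m₂⟩ * x := Subtype.ext (mem_centralizer_singleton_iff.1 (c₂ hx))
    rw [this, map_mul]
    group
  exact mem_opOf_iff.2 h5

/-- the commutator lies in `A ⊓ opOf p _ = ⊥` (`isPGroup_inf_opOf`). -/
theorem comm_of_pgroup (h : Pair p G) {A : Subgroup G} (hA : IsPGroup p A) {d₁ d₂ : G} (h₁ : d₁ ∈ DZ p G)
    (h₂ : d₂ ∈ DZ p G) (m₁ : d₁ ∈ A) (m₂ : d₂ ∈ A) : d₁ * d₂ = d₂ * d₁ := by
  obtain ⟨P₁, a₁, c₁⟩ := h₁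
  obtain ⟨P₂, a₂, c₂⟩ := h₂
  have h3 : d₁ * d₂ * d₁⁻¹ * d₂⁻¹ ∈ A ⊓ opOf p ((P₁ : Subgroup G) ⊔ (P₂ : Subgroup G)) :=
    ⟨A.mul_mem (A.mul_mem (A.mul_mem m₁ m₂) (A.inv_mem m₁)) (A.inv_mem m₂), pair_comm h P₁ P₂ a₁ c₁ a₂ c₂⟩
  rw [isPGroup_inf_opOf hA, mem_bot, mul_inv_eq_one, mul_inv_eq_iff_eq_mul] at h3
  exact h3

/-- `L ⊔ W = L W`; an element `a o` (`a ∈ W`, `o ∈ L`) has `(a ^ n)⁻¹ (a o) ^ n ∈ L`, so `a ^ ord ∈ L`, and `a` has
`p`-power order, so `a ∈ L` (copy `XC.mem_Kk_of_not_dvd`, Lib/XC/KS.lean; `SolvStruct.mem_of_pow_mem_of_coprime`). -/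
theorem mem_of_not_dvd {L W : Subgroup G} (hW : IsPGroup p W) (hn : W ≤ normalizer (L : Set G)) {x : G}
    (hx : x ∈ W ⊔ L) (ho : ¬ p ∣ orderOf x) : x ∈ L := by
  obtain ⟨a, ha, o, ho', rfl⟩ := (Core.mem_sup_of_le_normalizer_right hn).mp hx
  have h1 : ∀ n : ℕ, (a ^ n)⁻¹ * (a * o) ^ n ∈ L := fun n => by
    induction n with
    | zero => simp
    | succ n ih =>
      have h2 := mul_mem (conj_mem_of_mem_normalizer' (hn ha) ih) ho'
      have h3 : a⁻¹ * ((a ^ n)⁻¹ * (a * o) ^ n) * a * o = (a ^ (n + 1))⁻¹ * (a * o) ^ (n + 1) := by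
        rw [pow_succ, pow_succ, mul_inv_rev]
        simp only [mul_assoc]
      rwa [h3] at h2
  have h2 : a ^ orderOf (a * o) ∈ L := by
    have := h1 (orderOf (a * o))
    rwa [pow_orderOf_eq_one, mul_one, inv_mem_iff] at this
  obtain ⟨j, hj⟩ := isPGroup_zpowers_iff.1 (isPGroup_zpowers_of_mem hW ha)
  have hc : (orderOf a).Coprime (orderOf (a * o)) := by
    rw [hj]
    exact ((Nat.Prime.coprime_iff_not_dvd hp.out).2 ho).pow_left j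
  have h3 : a ∈ L := by
    obtain ⟨m, hm⟩ := exists_pow_eq_self_of_coprime hc.symm
    rw [← hm]
    exact pow_mem h2 m
  exact mul_mem h3 ho'

end CfsgLib.SP2
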