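import Mathlib
import Cfsg.Agent.Lib.SP2.Defs

/-! SP2/G2a: a coprime commutator lemma. -/

set_option autoImplicit false
set_option linter.unusedSectionVars false
set_option linter.unusedVariables false

namespace CfsgLib.SP2

open Subgroup Cfsg CfsgLib.PComp CfsgLib.Tech CfsgLib.Char CfsgLib.XC
open scoped ComplexConjugate

variable {G : Type*} [Group G] [Finite G] {p : ℕ} [hp : Fact p.Prime]

omit [Finite G] in
theorem g2a_pow {d e z : G} (h1 : d * e * d⁻¹ = z * e) (c : Commute d z) (n : ℕ) :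
    d ^ n * e * (d ^ n)⁻¹ = z ^ n * e := by
  induction n with
  | zero => simp
  | succ n ih =>
    calc _ = d * (d ^ n * e * (d ^ n)⁻¹) * d⁻¹ := by rw [pow_succ']; group
      _ = d * z ^ n * d⁻¹ * (d * e * d⁻¹) := by rw [ih]; group
      _ = _ := by rw [(c.pow_right n).eq, mul_inv_cancel_right, h1, pow_succ, mul_assoc]

theorem g2a_one {c : G} {k n : ℕ} (h1 : c ^ p ^ k = 1) (h2 : c ^ n = 1) (hn : n.Coprime p) : c = 1 :=
  orderOf_eq_one_iff.1 (Nat.eq_one_of_dvd_coprimes (hn.pow_right k) (orderOf_dvd_of_pow_eq_one h2)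
    (orderOf_dvd_of_pow_eq_one h1))

/-- Let `C = V ⊓ C(R)` (normalized by `d`, centralized by `R`). Call `g` good if `x⁻¹ g x g⁻¹ ∈ C` for all `x ∈ V`.
`s d s⁻¹` is good (`x⁻¹ (s d s⁻¹) x (s d s⁻¹)⁻¹ = s (x'⁻¹ d x' d⁻¹) s⁻¹`, `x' = s⁻¹ x s`), `d⁻¹` is good
(`x⁻¹ d⁻¹ x d = d⁻¹ (y⁻¹ d y d⁻¹) d`, `y = d⁻¹ x⁻¹ d`... or directly), and the product `r = s d s⁻¹ d⁻¹ ∈ R` is good:
`x⁻¹ (g h) x (g h)⁻¹ = (x⁻¹ g x g⁻¹) g (x⁻¹ h x h⁻¹) g⁻¹`. So `r x r⁻¹ = x c`, `c ∈ C` commutes with `r`,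
`r ^ n x r ^ (-n) = x c ^ n`; with `n = |R|` get `c ^ n = 1`, `c ∈ V` a `p`-element, so `c = 1`. Hence `r ∈ C(V) ≤ V`,
`r ∈ V ⊓ R = ⊥` (`PLocal.PSolv.disjoint_of_isPGroup_of_coprime`). -/
theorem cent_of_comm {V R : Subgroup G} [V.Normal] (hV : IsPGroup p V) (hC : centralizer (V : Set G) ≤ V)
    (hR : (Nat.card R).Coprime p) {d : G} (hd : d ∈ normalizer (R : Set G))
    (hc : ∀ x ∈ V, ∀ s ∈ R, x⁻¹ * d * x * d⁻¹ * s = s * (x⁻¹ * d * x * d⁻¹)) :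
    ∀ s ∈ R, s * d = d * s := by
  intro s hs
  have hZ : ∀ g ∈ normalizer (R : Set G), ∀ c ∈ centralizer (R : Set G), g * c * g⁻¹ ∈ centralizer (R : Set G) :=
    fun g hg c hc => mem_centralizer_iff.2 fun y hy => by
      have e := mem_centralizer_iff.1 hc _ ((mem_normalizer_iff''.1 hg y).1 hy)
      calc _ = g * (g⁻¹ * y * g * c) * g⁻¹ := by group
        _ = _ := by rw [e]; group
  have h1 : ∀ x ∈ V, x⁻¹ * d * x * d⁻¹ ∈ centralizer (R : Set G) :=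
    fun x hx => mem_centralizer_iff.2 fun y hy => (hc x hx y hy).symm
  have hs' := le_normalizer hs
  have hr : s * d * s⁻¹ * d⁻¹ ∈ R := by
    have := mul_mem hs ((mem_normalizer_iff.1 hd _).1 (inv_mem hs))
    simpa only [mul_assoc] using this
  have one : ∀ c ∈ V, c ^ Nat.card R = 1 → c = 1 := fun c hc e => by
    obtain ⟨k, hk⟩ := hV ⟨c, hc⟩
    exact g2a_one (congrArg Subtype.val hk) e hR
  have rp : (s * d * s⁻¹ * d⁻¹) ^ Nat.card R = 1 :=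
    congrArg Subtype.val (pow_card_eq_one' (x := (⟨_, hr⟩ : R)))
  have h2 : ∀ x ∈ V, x⁻¹ * (s * d * s⁻¹ * d⁻¹) * x * (s * d * s⁻¹ * d⁻¹)⁻¹ ∈ centralizer (R : Set G) :=
    fun x hx => by
      have a1 := hZ s hs' _ (h1 _ (Normal.conj_mem' ‹V.Normal› x hx s))
      have a2 := hZ _ (mul_mem (mul_mem hs' hd) (inv_mem hs')) _ (hZ _ (inv_mem hd) _ (inv_mem (h1 x hx)))
      convert mul_mem a1 a2 using 1
      group
  generalize hq : s * d * s⁻¹ * d⁻¹ = r at hr rp h2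
  have h3 : r = 1 := one r (hC (mem_centralizer_iff.2 fun x hx => ?_)) rp
  · rw [h3, mul_inv_eq_one, mul_inv_eq_iff_eq_mul] at hq
    exact hq
  have m : x⁻¹ * r * x * r⁻¹ ∈ V := by
    have := mul_mem (inv_mem hx) (Normal.conj_mem ‹V.Normal› x hx r)
    simpa only [mul_assoc] using this
  have e := g2a_pow (d := r) (e := x⁻¹) (z := (x⁻¹ * r * x * r⁻¹)⁻¹) (by group)
    (mem_centralizer_iff.1 (inv_mem (h2 x hx)) r hr) (Nat.card R)
  rw [rp, one_mul, inv_one, mul_one, eq_comm, mul_eq_right] at e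
  have e2 := inv_eq_one.1 (one _ (inv_mem m) e)
  calc x * r = x * (x⁻¹ * r * x * r⁻¹) * r := by rw [e2, mul_one]
    _ = _ := by group

/-- `z = d e d⁻¹ e⁻¹` commutes with `d`, so `d ^ n e (d ^ n)⁻¹ e⁻¹ = z ^ n`; take `n = orderOf d = p ^ k`. -/
theorem comm_of_cent {d e : G} (hd : ∃ k : ℕ, orderOf d = p ^ k) (ho : ¬ p ∣ orderOf (d * e * d⁻¹ * e⁻¹))
    (hc : d * e * d⁻¹ * e⁻¹ * d = d * (d * e * d⁻¹ * e⁻¹)) : d * e = e * d := by
  obtain ⟨k, hk⟩ := hd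
  have e1 := g2a_pow (d := d) (e := e) (z := d * e * d⁻¹ * e⁻¹) (by group) hc.symm (p ^ k)
  rw [← hk, pow_orderOf_eq_one, one_mul, inv_one, mul_one, eq_comm, mul_eq_right, hk] at e1
  have e2 := g2a_one e1 (pow_orderOf_eq_one _) ((Nat.Prime.coprime_iff_not_dvd hp.out).2 ho).symm
  rwa [mul_inv_eq_one, mul_inv_eq_iff_eq_mul] at e2

end CfsgLib.SP2
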