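import Mathlib
import Cfsg.Agent.Lib.SP2.G1
import Cfsg.Agent.Lib.SP2.G2a
import Cfsg.Agent.Lib.Invol.BaerSuzuki

/-! SP2/G2: p-central elements lie in O_{p',p} of p-solvable subgroups. -/

set_option autoImplicit false
set_option linter.unusedSectionVars false
set_option linter.unusedVariables false

namespace CfsgLib.SP2

open Subgroup Cfsg CfsgLib.PComp CfsgLib.Tech CfsgLib.Char CfsgLib.XC
open scoped ComplexConjugate

variable {G : Type*} [Group G] [Finite G] {p : ℕ} [hp : Fact p.Prime]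

/-- `f : X → Y = X ⧸ O_{p'}(X)`, `V = O_p(Y)` (`C(V) ≤ V` by `PLocal.PSolv.centralizer_pCore_le`). By
`baer_suzuki_elem` it suffices that `f d` commutes with each conjugate `f (y d y⁻¹)`, `y ∈ X`.
Take a Sylow `S` of `X` containing `d` (so `V ≤ S.map f`). For `x ∈ S`, `x⁻¹ d x ∈ DZ` (`conj_mem_DZ`) commutes with `d`
(`comm_of_pgroup`), so `u = x⁻¹ d x d⁻¹ ∈ A = S ⊓ C(d)`. Take `P₁ ≥ A` from `exists_sylow_ge`, `P₂ = y • P₁`,
`K = opOf p (P₁ ⊔ P₂)`, `z = d e d⁻¹ e⁻¹ ∈ K` for `e = y d y⁻¹` (`pair_comm`). `R` = image under `f` of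
`K.subgroupOf X` has order prime to `p` and is normalized by the images of `d` and `u` (both in `P₁ ⊓ X`). For `x ∈ S`
with `f x ∈ V` we have `f u ∈ V`, so for `s ∈ R` the commutator of `f u` and `s` is in `V ⊓ R = ⊥`. `cent_of_comm` gives
that `f d` centralizes `R ∋ f z`, and `comm_of_cent` finishes. -/
theorem mem_core (h : Pair p G) {X : Subgroup G} (hX : IsPSolvable p X) {d : X} (hd : (d : G) ∈ DZ p G) :
    QuotientGroup.mk' (pPrimeCore p X) d ∈ pCore p (X ⧸ pPrimeCore p X) := by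
  set f := QuotientGroup.mk' (pPrimeCore p X)
  have hf : Function.Surjective f := QuotientGroup.mk'_surjective _
  have hC := PLocal.PSolv.centralizer_pCore_le (PLocal.PSolv.quotient hX (pPrimeCore p X))
    PLocal.PSolv.pPrimeCore_quotient
  have dp : IsPGroup p (zpowers d) := by
    obtain ⟨k, hk⟩ := DZ_pElt hd
    exact isPGroup_zpowers_iff.2 ⟨k, by rwa [orderOf_coe] at hk⟩
  have fp : IsPGroup p (zpowers (f d)) := by
    rw [← MonoidHom.map_zpowers]
    exact dp.map f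
  obtain ⟨S, hS⟩ := dp.exists_le_sylow
  have dS : d ∈ (S : Subgroup X) := hS (mem_zpowers d)
  have pS : IsPGroup p ((S : Subgroup X).map X.subtype) := S.isPGroup'.map _
  obtain ⟨P₁, m₁, c₁, hA⟩ := exists_sylow_ge hd
    (A := (S : Subgroup X).map X.subtype ⊓ centralizer {(d : G)}) pS.to_inf_left inf_le_right
  refine CfsgLib.Invol.baer_suzuki_elem fun g => ?_
  obtain ⟨y, rfl⟩ := hf g
  have z := pair_comm h P₁ ((y : G) • P₁) (d₂ := y * d * (y : G)⁻¹) m₁ c₁
    (by rw [coe_smul_sylow]; exact conj_mem_cj.2 m₁)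
    (by rw [coe_smul_sylow, ← cj_centralizer_singleton]; exact cj_mono _ c₁)
  set K := opOf p ((P₁ : Subgroup G) ⊔ ((y : G) • P₁ : Sylow p G))
  have hR : (Nat.card ((K.subgroupOf X).map f)).Coprime p :=
    (coprime_card_opOf _).coprime_dvd_left ((card_map_dvd _ _).trans (PLocal.PSolv.card_subgroupOf_dvd _ _))
  have nR : ∀ a : X, (a : G) ∈ (P₁ : Subgroup G) → ∀ s ∈ (K.subgroupOf X).map f,
      f a * s * (f a)⁻¹ ∈ (K.subgroupOf X).map f := by
    rintro a ha _ ⟨s, hs, rfl⟩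
    have : (a : G) * s * (a : G)⁻¹ ∈ K :=
      conj_mem_of_mem_normalizer (le_normalizer_opOf _ (mem_sup_left ha)) (mem_subgroupOf.1 hs)
    exact ⟨a * s * a⁻¹, this, by simp⟩
  have dj := PLocal.PSolv.disjoint_of_isPGroup_of_coprime PLocal.PSolv.isPGroup_pCore hR
  have nV : (pCore p (X ⧸ pPrimeCore p X)).Normal := inferInstance
  have key := cent_of_comm PLocal.PSolv.isPGroup_pCore hC hR (mem_normalizer_of_forall (nR d m₁)) fun v hv s hs => by
    obtain ⟨x, hx, rfl⟩ := PLocal.PSolv.pCore_le_sylow (S.mapSurjective hf) hv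
    have c := comm_of_pgroup h pS (conj_mem_DZ hd (x : G)⁻¹) hd
      ⟨x⁻¹ * d * x⁻¹⁻¹, mul_mem (mul_mem (inv_mem hx) dS) (inv_mem (inv_mem hx)), rfl⟩ ⟨d, dS, rfl⟩
    rw [inv_inv] at c
    have u1 : ((x⁻¹ * d * x * d⁻¹ : X) : G) ∈ (P₁ : Subgroup G) := hA
      ⟨⟨_, mul_mem (mul_mem (mul_mem (inv_mem hx) dS) hx) (inv_mem dS), rfl⟩, by
        refine mem_centralizer_singleton_iff.2 ?_
        change (x : G)⁻¹ * d * x * (d : G)⁻¹ * d = d * ((x : G)⁻¹ * d * x * (d : G)⁻¹)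
        rw [← mul_assoc (d : G), ← c]
        group⟩
    have u2 := nR _ u1 s hs
    have u3 : (f x)⁻¹ * f d * f x * (f d)⁻¹ ∈ pCore p (X ⧸ pPrimeCore p X) := by
      have := mul_mem (inv_mem hv) (nV.conj_mem _ hv (f d))
      simpa only [mul_assoc] using this
    rw [map_mul, map_mul, map_mul, map_inv, map_inv] at u2
    generalize (f x)⁻¹ * f d * f x * (f d)⁻¹ = u at u2 u3
    have u4 : u * s * u⁻¹ * s⁻¹ = 1 := disjoint_def.1 dj
      (by simpa only [mul_assoc] using mul_mem u3 (nV.conj_mem _ (inv_mem u3) s)) (mul_mem u2 (inv_mem hs))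
    rwa [mul_inv_eq_one, mul_inv_eq_iff_eq_mul] at u4
  have zR : f d * (f y * f d * (f y)⁻¹) * (f d)⁻¹ * (f y * f d * (f y)⁻¹)⁻¹ ∈ (K.subgroupOf X).map f :=
    ⟨d * (y * d * y⁻¹) * d⁻¹ * (y * d * y⁻¹)⁻¹, z, by simp only [map_mul, map_inv]⟩
  have cm := comm_of_cent (isPGroup_zpowers_iff.1 fp)
    (fun e => (Nat.Prime.coprime_iff_not_dvd hp.out).1 hR.symm (e.trans (orderOf_dvd_natCard _ zR))) (key _ zR)
  have fp' : IsPGroup p (zpowers (f y * f d * (f y)⁻¹)) := by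
    obtain ⟨k, hk⟩ := isPGroup_zpowers_iff.1 fp
    exact isPGroup_zpowers_iff.2 ⟨k, by rw [← hk]; exact (MulAut.conj (f y)).orderOf_eq (f d)⟩
  refine (fp.to_sup_of_normal_right' fp' (zpowers_le.2 (mem_normalizer_of_forall ?_))).to_le ?_
  · rintro _ ⟨n, rfl⟩
    have : Commute (f d) ((f y * f d * (f y)⁻¹) ^ n) := Commute.zpow_right cm n
    beta_reduce
    rw [this.eq, mul_inv_cancel_right]
    exact ⟨n, rfl⟩
  · rw [closure_le]
    rintro _ (rfl | rfl)
    · exact mem_sup_left (mem_zpowers _)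
    · exact mem_sup_right (mem_zpowers _)

end CfsgLib.SP2
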