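import Mathlib
import Cfsg.Agent.Lib.SP2.G2

/-! SP2/G3: the subgroup W(P). -/

set_option autoImplicit false
set_option linter.unusedSectionVars false
set_option linter.unusedVariables false

namespace CfsgLib.SP2

open Subgroup Cfsg CfsgLib.PComp CfsgLib.Tech CfsgLib.Char CfsgLib.XC
open scoped ComplexConjugate

variable {G : Type*} [Group G] [Finite G] {p : ℕ} [hp : Fact p.Prime]

theorem WW_le (A : Subgroup G) : WW p A ≤ A := by
  exact (closure_le _).2 Set.inter_subset_right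

theorem mem_WW {A : Subgroup G} {d : G} (hd : d ∈ DZ p G) (hA : d ∈ A) : d ∈ WW p A := by
  exact subset_closure ⟨hd, hA⟩

/-- `MonoidHom.map_closure`, `conj_mem_DZ`. -/
theorem cj_WW (g : G) (A : Subgroup G) : cj g (WW p A) = WW p (cj g A) := by
  have key : ∀ (g : G) (A : Subgroup G), cj g (WW p A) ≤ WW p (cj g A) := fun g A => by
    refine map_le_iff_le_comap.2 ((closure_le _).2 fun d hd => ?_)
    exact mem_WW (conj_mem_DZ hd.1 g) (conj_mem_cj.2 hd.2)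
  refine le_antisymm (key g A) ?_
  have := cj_mono g (key g⁻¹ (cj g A))
  rwa [cj_cj_inv, cj_inv_cj] at this

/-- generators commute by `comm_of_pgroup` (`closure_induction₂` or `Subgroup.closure_le` with centralizers). -/
theorem WW_comm (h : Pair p G) {A : Subgroup G} (hA : IsPGroup p A) :
    ∀ a ∈ WW p A, ∀ b ∈ WW p A, a * b = b * a := by
  have h1 : ∀ d ∈ DZ p G ∩ (A : Set G), WW p A ≤ centralizer ({d} : Set G) := fun d hd =>
    (closure_le _).2 fun e he => mem_centralizer_singleton_iff.2 (comm_of_pgroup h hA he.1 hd.1 he.2 hd.2)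
  intro a ha b hb
  have h2 : WW p A ≤ centralizer ({a} : Set G) :=
    (closure_le _).2 fun d hd =>
      mem_centralizer_singleton_iff.2 (mem_centralizer_singleton_iff.1 (h1 d hd ha)).symm
  exact (mem_centralizer_singleton_iff.1 (h2 hb)).symm

/-- `WW P ≤ WW P'` on generators, and the orders agree (`P' = g • P`, `cj_WW`, `card_cj`). -/
theorem WW_eq_of_le (P P' : Sylow p G) (h : WW p (P : Subgroup G) ≤ (P' : Subgroup G)) :
    WW p (P' : Subgroup G) = WW p (P : Subgroup G) := by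
  obtain ⟨g, hg⟩ := MulAction.exists_smul_eq G P P'
  have h1 : WW p (P : Subgroup G) ≤ WW p (P' : Subgroup G) :=
    (closure_le _).2 fun d hd => mem_WW hd.1 (h (mem_WW hd.1 hd.2))
  refine (eq_of_le_of_card_ge h1 (le_of_eq ?_)).symm
  rw [← hg, coe_smul_sylow, ← cj_WW, card_cj]

/-- `T = P₁ ⊔ P₂`, `K = O_{p'}(T)`, `f = mk' (pPrimeCore p T)`, `V = O_p(T ⧸ K) ≤` images of both Sylow subgroups. Let
`U_i = P_i ⊓ (V.comap f).map T.subtype`. Both are Sylow in `O = (V.comap f).map T.subtype` (`inf_of_le_normalizer`), and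
`O = K U₁`, so `U₂ = cj t U₁` with `t = k u`, `k ∈ K`, `u ∈ U₁` (`IsSylowIn.exists_cj_eq`), i.e. `U₂ = cj k U₁`.
By `mem_core`, `DZ ∩ P_i = DZ ∩ U_i`, so `WW P_i = WW U_i`; finish with `cj_WW`. -/
theorem exists_cj_WW (h : Pair p G) (P₁ P₂ : Sylow p G) :
    ∃ k ∈ opOf p ((P₁ : Subgroup G) ⊔ (P₂ : Subgroup G)),
      cj k (WW p (P₁ : Subgroup G)) = WW p (P₂ : Subgroup G) := by
  set T : Subgroup G := (P₁ : Subgroup G) ⊔ (P₂ : Subgroup G) with hT
  have hX : IsPSolvable p T := h _ _ P₁.isPGroup' P₂.isPGroup'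
  let f := QuotientGroup.mk' (pPrimeCore p T)
  let O : Subgroup G := ((pCore p (T ⧸ pPrimeCore p T)).comap f).map T.subtype
  have hO : ∀ x : T, (x : G) ∈ O ↔ f x ∈ pCore p (T ⧸ pPrimeCore p T) := fun x =>
    ⟨fun ⟨y, hy, e⟩ => (Subtype.ext e : y = x) ▸ hy, fun hx => ⟨x, hx, rfl⟩⟩
  have hn : T ≤ normalizer (O : Set G) := fun t ht => mem_normalizer_of_forall fun x hx => by
    obtain ⟨y, hy, rfl⟩ := hx
    exact ⟨⟨t, ht⟩ * y * (⟨t, ht⟩ : T)⁻¹,
      (inferInstance : ((pCore p (T ⧸ pPrimeCore p T)).comap f).Normal).conj_mem _ hy _, rfl⟩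
  have s₁ : IsSylowIn p (P₁ : Subgroup G) T := IsSylowIn.of_sylow P₁ le_sup_left
  have s₂ : IsSylowIn p (P₂ : Subgroup G) T := IsSylowIn.of_sylow P₂ le_sup_right
  have hW : ∀ A : Subgroup G, A ≤ T → WW p A = WW p (A ⊓ O) := fun A hA =>
    le_antisymm ((closure_le _).2 fun d hd =>
        mem_WW hd.1 ⟨hd.2, (hO ⟨d, hA hd.2⟩).2 (mem_core h hX (d := ⟨d, hA hd.2⟩) hd.1)⟩)
      (closure_mono (Set.inter_subset_inter_right _ fun x hx => hx.1))
  obtain ⟨t, ht, e⟩ := (s₁.inf_of_le_normalizer hn).exists_cj_eq (s₂.inf_of_le_normalizer hn)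
  have h1 : f ⟨t, ht.1⟩ ∈ pCore p (T ⧸ pPrimeCore p T) := (hO ⟨t, ht.1⟩).1 ht.2
  have h2 : pCore p (T ⧸ pPrimeCore p T) ≤
      (s₁.toSylow.mapSurjective (QuotientGroup.mk'_surjective (pPrimeCore p T)) : Subgroup _) :=
    (Core.isPGroup_pCore p _).le_sylow_of_normal _
  obtain ⟨u, hu, eu⟩ := h2 h1
  have hu1 : (u : G) ∈ (P₁ : Subgroup G) ⊓ O := ⟨s₁.mem_toSylow.1 hu, (hO u).2 (by
    rw [show f u = f ⟨t, ht.1⟩ from eu]; exact h1)⟩
  have hk : (⟨t, ht.1⟩ : T) * u⁻¹ ∈ pPrimeCore p T := by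
    rw [← QuotientGroup.eq_one_iff]
    change f (_ * _) = 1
    rw [map_mul, map_inv, show f u = f ⟨t, ht.1⟩ from eu, mul_inv_cancel]
  refine ⟨t * (u : G)⁻¹, ⟨_, hk, rfl⟩, ?_⟩
  rw [hW _ (le_sup_left : (P₁ : Subgroup G) ≤ T), hW _ (le_sup_right : (P₂ : Subgroup G) ≤ T), cj_WW, cj_mul,
    cj_eq_of_mem (inv_mem hu1), e]

end CfsgLib.SP2
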