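import Mathlib
import Cfsg.Agent.Lib.SP2.Defs

/-! SP2/Sum: averaging over KK. -/

set_option autoImplicit false
set_option linter.unusedSectionVars false
set_option linter.unusedVariables false

namespace CfsgLib.SP2

open Subgroup Cfsg CfsgLib.PComp CfsgLib.Tech CfsgLib.Char CfsgLib.XC
open scoped ComplexConjugate

variable {G : Type*} [Group G] [Finite G] {p : ℕ} [hp : Fact p.Prime]

theorem card_fiber {N C : Subgroup G} {KK : Finset G} (hC : C ≤ N)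
    (dec : ∀ g : G, ∃ k ∈ KK, k⁻¹ * g ∈ N) (un : ∀ k ∈ KK, ∀ n ∈ N, k * n ∈ KK ↔ n ∈ C) (g : G)
    [DecidablePred fun k : G => k⁻¹ * g ∈ N] :
    (KK.filter fun k => k⁻¹ * g ∈ N).card = Nat.card C := by
  classical
  obtain ⟨k₀, hk₀, hn₀⟩ := dec g
  rw [← card_fs C]
  symm
  refine Finset.card_bij (fun c _ => k₀ * c) ?_ ?_ ?_
  · intro c hc
    have hc' : c ∈ C := by simpa using hc
    refine Finset.mem_filter.2 ⟨(un k₀ hk₀ c (hC hc')).2 hc', ?_⟩
    have : (k₀ * c)⁻¹ * g = c⁻¹ * (k₀⁻¹ * g) := by group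
    rw [this]
    exact N.mul_mem (N.inv_mem (hC hc')) hn₀
  · intro a _ b _ h
    exact mul_left_cancel h
  · intro k hk
    obtain ⟨hk1, hk2⟩ := Finset.mem_filter.1 hk
    have hm : k₀⁻¹ * k ∈ N := by
      have : k₀⁻¹ * k = (k₀⁻¹ * g) * (k⁻¹ * g)⁻¹ := by group
      rw [this]
      exact N.mul_mem hn₀ (N.inv_mem hk2)
    have he : k₀ * (k₀⁻¹ * k) = k := by group
    refine ⟨k₀⁻¹ * k, ?_, he⟩
    have : k₀⁻¹ * k ∈ C := (un k₀ hk₀ _ hm).1 (by rw [he]; exact hk1)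
    simpa using this

theorem sum_key {N C : Subgroup G} {KK : Finset G} (hC : C ≤ N)
    (dec : ∀ g : G, ∃ k ∈ KK, k⁻¹ * g ∈ N) (un : ∀ k ∈ KK, ∀ n ∈ N, k * n ∈ KK ↔ n ∈ C)
    (F : G → ℂ) (hF : ∀ g : G, ∀ n ∈ N, F (g * n) = F g) :
    (Nat.card N : ℂ) * ∑ k ∈ KK, F k = (Nat.card C : ℂ) * ∑ g ∈ fs (Set.univ : Set G), F g := by
  classical
  have h1 : ∀ k : G, (Nat.card N : ℂ) * F k =
      ∑ g ∈ fs (Set.univ : Set G), if k⁻¹ * g ∈ N then F g else 0 := by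
    intro k
    rw [← Finset.sum_filter, ← card_fs N, ← nsmul_eq_mul, ← Finset.sum_const]
    refine Finset.sum_bij (fun n _ => k * n) ?_ ?_ ?_ ?_
    · intro n hn
      have hn' : n ∈ N := by simpa using hn
      refine Finset.mem_filter.2 ⟨by simp, ?_⟩
      simpa using hn'
    · intro a _ b _ h
      exact mul_left_cancel h
    · intro g hg
      refine ⟨k⁻¹ * g, ?_, by group⟩
      simpa using (Finset.mem_filter.1 hg).2
    · intro n hn
      have hn' : n ∈ N := by simpa using hn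
      exact (hF k n hn').symm
  rw [Finset.mul_sum, Finset.sum_congr rfl fun k _ => h1 k, Finset.sum_comm, Finset.mul_sum]
  refine Finset.sum_congr rfl fun g _ => ?_
  rw [← Finset.sum_filter, Finset.sum_const, card_fiber hC dec un g, nsmul_eq_mul]

/-- Double count `∑_{k ∈ KK} ∑_{n ∈ N} F (k n) = |N| ∑_{KK} F` `= ∑_g F g * #{(k, n) | k n = g} = |C| ∑_g F g`:
for `g = k₀ n₀` the pairs are `(k₀ c, c⁻¹ n₀)`, `c ∈ C`. With `F = 1`: `|N| |KK| = |C| |G|`. Multiply and cancel.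
(Compare `XC.sum_KK`.) -/
theorem sum_of_uniq {N C : Subgroup G} {KK : Finset G} (hC : C ≤ N)
    (dec : ∀ g : G, ∃ k ∈ KK, k⁻¹ * g ∈ N) (un : ∀ k ∈ KK, ∀ n ∈ N, k * n ∈ KK ↔ n ∈ C)
    (F : G → ℂ) (hF : ∀ g : G, ∀ n ∈ N, F (g * n) = F g) :
    (Nat.card G : ℂ) * ∑ k ∈ KK, F k = (KK.card : ℂ) * ∑ g ∈ fs (Set.univ : Set G), F g := by
  have h1 := sum_key hC dec un F hF
  have h2 := sum_key hC dec un (fun _ => 1) (fun _ _ _ => rfl)
  have hG : (fs (Set.univ : Set G)).card = Nat.card G := by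
    have := card_fs (⊤ : Subgroup G)
    rwa [Subgroup.coe_top, Subgroup.card_top] at this
  rw [Finset.sum_const, Finset.sum_const, hG, nsmul_eq_mul, nsmul_eq_mul, mul_one, mul_one] at h2
  have hN : (Nat.card N : ℂ) ≠ 0 := Nat.cast_ne_zero.2 Nat.card_pos.ne'
  apply mul_left_cancel₀ hN
  linear_combination (Nat.card G : ℂ) * h1 - (∑ g ∈ fs (Set.univ : Set G), F g) * h2

end CfsgLib.SP2
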