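import Mathlib
import Cfsg.Agent.Lib.SP2.G3
import Cfsg.Agent.Lib.SP2.Sum
import Cfsg.Agent.Lib.XC.LOC
import Cfsg.Agent.Lib.ChDeg.SylNorm

/-! SP2/HY: W(P) satisfies the abstract hypothesis. -/

set_option autoImplicit false
set_option linter.unusedSectionVars false
set_option linter.unusedVariables false

namespace CfsgLib.SP2

open Subgroup Cfsg CfsgLib.PComp CfsgLib.Tech CfsgLib.Char CfsgLib.XC
open scoped ComplexConjugate

variable {G : Type*} [Group G] [Finite G] {p : ℕ} [hp : Fact p.Prime]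

/-- the elements all of whose commutators with `W` have order prime to `p` -/
noncomputable def KW (p : ℕ) (W : Subgroup G) : Finset G :=
  fs {k | ∀ b ∈ W, ¬ p ∣ orderOf (k * b * k⁻¹ * b⁻¹)}

/-- `K_k` -/
def LW (p : ℕ) (P : Sylow p G) (k : G) : Subgroup G :=
  opOf p ((P : Subgroup G) ⊔ cj k (P : Subgroup G)) ⊓ (WW p (P : Subgroup G) ⊔ cj k (WW p (P : Subgroup G)))

/-- `exists_cj_WW` for `P'` and `k • P`: with `W = WW P = WW P'` (`WW_eq_of_le`), `L = opOf p (P' ⊔ cj k P)`, `t ∈ L`,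
`cj k W = WW (cj k P) = cj t W ≤ W ⊔ L`; so `W ⊔ cj k W ≤ W ⊔ L`, and `mem_of_not_dvd` (`W ≤ P' ≤ N(L)`). -/
theorem mem_opOf_of_not_dvd (h : Pair p G) (P P' : Sylow p G) (hW : WW p (P : Subgroup G) ≤ (P' : Subgroup G))
    (k : G) {x : G} (hx : x ∈ WW p (P : Subgroup G) ⊔ cj k (WW p (P : Subgroup G))) (ho : ¬ p ∣ orderOf x) :
    x ∈ opOf p ((P' : Subgroup G) ⊔ cj k (P : Subgroup G)) := by
  obtain ⟨t, ht, e⟩ := exists_cj_WW h P' (k • P)
  rw [coe_smul_sylow] at ht e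
  rw [WW_eq_of_le P P' hW, ← cj_WW] at e
  refine mem_of_not_dvd (P'.isPGroup'.to_le hW) (hW.trans (le_sup_left.trans (le_normalizer_opOf _)))
    (SetLike.le_def.1 (sup_le le_sup_left ?_) hx) ho
  rw [← e, cj_le_iff]
  exact fun y hy => mul_mem (mul_mem (mem_sup_right ht) (mem_sup_left hy)) (inv_mem (mem_sup_right ht))

theorem hy_nd {A : Subgroup G} {x : G} (hx : x ∈ opOf p A) : ¬ p ∣ orderOf x := fun d =>
  (hp.out.coprime_iff_not_dvd.1 (coprime_card_opOf (p := p) A).symm) (d.trans (orderOf_dvd_natCard _ hx))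

/-- `com`: `mem_opOf_of_not_dvd` with `P' = P`. `inv`: `k⁻¹ b k b⁻¹` is conjugate to `(k b k⁻¹ b⁻¹)⁻¹`. `dec`: `t` from
`exists_cj_WW P (g • P)` has `cj t W = cj g W` and `t b t⁻¹ b⁻¹ ∈ opOf p _`. `sum`: `sum_of_uniq` with
`C = centralizer W`: if `k, k n ∈ KW`, `b' = n b n⁻¹`, then `k b' k⁻¹ b'⁻¹` and `k b' k⁻¹ b⁻¹` are both in
`L = opOf p (P ⊔ cj k P)`, so `b' b⁻¹ ∈ W ⊓ L = ⊥` (`isPGroup_inf_opOf`). -/
theorem hy_W (h : Pair p G) (P : Sylow p G) :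
    Hy p (WW p (P : Subgroup G)) (normalizer (WW p (P : Subgroup G) : Set G)) (KW p (WW p (P : Subgroup G)))
      (LW p P) := by
  have m : ∀ k : G, ∀ b ∈ WW p (P : Subgroup G), ∀ b' ∈ WW p (P : Subgroup G),
      k * b * k⁻¹ * b'⁻¹ ∈ WW p (P : Subgroup G) ⊔ cj k (WW p (P : Subgroup G)) := fun k b hb b' hb' =>
    mul_mem (mem_sup_right ⟨b, hb, rfl⟩) (mem_sup_left (inv_mem hb'))
  have dec : ∀ g : G, ∃ k ∈ KW p (WW p (P : Subgroup G)),
      k⁻¹ * g ∈ normalizer (WW p (P : Subgroup G) : Set G) := fun g => by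
    obtain ⟨t, ht, e⟩ := exists_cj_WW h P (g • P)
    rw [coe_smul_sylow] at ht e
    rw [← cj_WW] at e
    refine ⟨t, mem_fs.2 fun b hb => hy_nd (A := (P : Subgroup G) ⊔ cj g (P : Subgroup G)) ?_, ?_⟩
    · rw [mul_assoc, mul_assoc, ← mul_assoc b]
      exact mul_mem ht (conj_mem_of_mem_normalizer (le_normalizer_opOf _ (mem_sup_left (WW_le _ hb))) (inv_mem ht))
    · rw [mem_normalizer_iff_cj, cj_mul, ← e, ← cj_mul, inv_mul_cancel, cj_one]
  refine ⟨P.isPGroup'.to_le (WW_le _), WW_comm h P.isPGroup', le_rfl,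
    fun k => coprime_card_of_le_opOf inf_le_left, fun k b hb => mem_normalizer_of_forall fun x hx =>
      ⟨conj_mem_of_mem_normalizer (le_normalizer_opOf _ (mem_sup_left (WW_le _ hb))) hx.1,
        conj_mem_of_mem_normalizer (le_normalizer (mem_sup_left hb)) hx.2⟩,
    fun k hk b hb => ⟨mem_opOf_of_not_dvd h P P (WW_le _) k (m k b hb b hb) (mem_fs.1 hk b hb), m k b hb b hb⟩,
    fun k hk => mem_fs.2 fun b hb => ?_, dec,
    sum_of_uniq (C := centralizer (WW p (P : Subgroup G) : Set G)) (centralizer_le_normalizer _) dec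
      fun k hk n hn => ⟨fun hkn b hb => ?_, fun hc => mem_fs.2 fun b hb => ?_⟩⟩
  · rw [show k⁻¹ * b * k⁻¹⁻¹ * b⁻¹ = MulAut.conj k⁻¹ (k * b * k⁻¹ * b⁻¹)⁻¹ by rw [MulAut.conj_apply]; group,
      MulEquiv.orderOf_eq, orderOf_inv]
    exact mem_fs.1 hk b hb
  · have hb' := conj_mem_of_mem_normalizer hn hb
    have h1 := mem_opOf_of_not_dvd h P P (WW_le _) k (m k _ hb' _ hb') (mem_fs.1 hk _ hb')
    have h2 := mem_opOf_of_not_dvd h P P (WW_le _) k (m k _ hb' _ hb) (by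
      have := mem_fs.1 hkn b hb
      rwa [show k * n * b * (k * n)⁻¹ * b⁻¹ = k * (n * b * n⁻¹) * k⁻¹ * b⁻¹ by group] at this)
    have h3 := mul_mem (inv_mem h1) h2
    rw [show (k * (n * b * n⁻¹) * k⁻¹ * (n * b * n⁻¹)⁻¹)⁻¹ * (k * (n * b * n⁻¹) * k⁻¹ * b⁻¹) =
      n * b * n⁻¹ * b⁻¹ by group] at h3
    have h4 := mem_bot.1 ((isPGroup_inf_opOf P.isPGroup' _).le ⟨WW_le _ (mul_mem hb' (inv_mem hb)), h3⟩)
    exact (mul_inv_eq_iff_eq_mul.1 (mul_inv_eq_one.1 h4)).symm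
  · rw [show k * n * b * (k * n)⁻¹ * b⁻¹ = k * (n * b * n⁻¹) * k⁻¹ * b⁻¹ by group, ← hc b hb,
      mul_inv_cancel_right]
    exact mem_fs.1 hk b hb

/-- Take `S` Sylow in `C(c)` with `W ≤ S` (`exists_isSylowIn_ge`, `WW_comm`), `P' ≥ S` Sylow in `G`
(`IsPGroup.exists_le_sylow`), `L = opOf p (P' ⊔ cj k P) ∋ s` (`mem_opOf_of_not_dvd`). `XC.exists_conj_cent` with `K = L`
gives `w ∈ L ⊓ C(c)`, `s c ~ w c`. `(L ⊓ C(c)).subgroupOf C(c)` is normalized by `S.toSylow`, so lies in `O_{p'}(C(c))`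
(`ChDeg.le_pPrimeCore_of_normalizes`); finish as `XC.good_B0` with
`Block.principal_mul_of_mem_centralizerPPrimeCore` and `irr_isClassFunction`. -/
theorem good_W (h : Pair p G) (P : Sylow p G) {M : Ideal AlgInt} (hM : IsPModular p M)
    (hc : ∀ c : G, c ≠ 1 → IsPSolvable p ↥(centralizer ({c} : Set G))) :
    ∀ χ ∈ B0 M G, Gd (WW p (P : Subgroup G)) (KW p (WW p (P : Subgroup G))) (LW p P) (χ : G → ℂ) := by
  intro χ hχ c hcW c1 k hk s hs
  have hy := hy_W h P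
  obtain ⟨S, hS, hWS⟩ := exists_isSylowIn_ge (H := centralizer ({c} : Set G)) hy.pg
    fun w hw => mem_centralizer_singleton_iff.2 (hy.ab w hw c hcW)
  obtain ⟨P', hP'⟩ := hS.pgroup.exists_le_sylow
  have hn : S ≤ normalizer (opOf p ((P' : Subgroup G) ⊔ cj k (P : Subgroup G)) : Set G) :=
    hP'.trans (le_sup_left.trans (le_normalizer_opOf _))
  obtain ⟨w, hw, e, hj⟩ := exists_conj_cent (coprime_card_opOf _) (hy.pElt hcW) (hn (hWS hcW))
    (mem_opOf_of_not_dvd h P P' (hWS.trans hP') k hs.2 (hy_nd hs.1))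
  obtain ⟨t, ht⟩ := isConj_iff.1 hj
  have h1 := ChDeg.le_pPrimeCore_of_normalizes (hc c c1) hS.toSylow
    (Q := (opOf p ((P' : Subgroup G) ⊔ cj k (P : Subgroup G))).subgroupOf (centralizer ({c} : Set G)))
    ((coprime_card_opOf _).coprime_dvd_left (card_comap_dvd_of_injective _ _ (subtype_injective _)))
    fun x hx => mem_normalizer_of_forall fun y hy =>
      mem_subgroupOf.2 (conj_mem_of_mem_normalizer (g := (x : G)) (x := (y : G)) (hn hx) hy)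
  rw [← Block.principal_mul_of_mem_centralizerPPrimeCore hM (hy.pElt hcW) (v := w)
    ⟨⟨w, mem_centralizer_singleton_iff.2 e⟩, h1 hw, rfl⟩ (mem_B0.1 hχ), ← e, ← ht, irr_isClassFunction χ]

end CfsgLib.SP2
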