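import Mathlib
import Cfsg.Agent.Lib.SP2.Defs

/-! SP2/Red: reduction to simple groups. -/

set_option autoImplicit false
set_option linter.unusedSectionVars false
set_option linter.unusedVariables false

namespace CfsgLib.SP2

open Subgroup Cfsg CfsgLib.PComp CfsgLib.Tech CfsgLib.Char CfsgLib.XC
open scoped ComplexConjugate

variable {G : Type*} [Group G] [Finite G] {p : ℕ} [hp : Fact p.Prime]

/-- every `p`-subgroup lies in a Sylow subgroup `a • P`; `a • P ⊔ b • P = cj a (P ⊔ cj (a⁻¹ b) P)`;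
`PLocal.PSolv.of_le`, `PLocal.PSolv.of_equiv` (`cjEquiv`). -/
theorem pair_of (P : Sylow p G)
    (h : ∀ g : G, IsPSolvable p ↥((P : Subgroup G) ⊔ (P : Subgroup G).map (MulAut.conj g).toMonoidHom)) :
    Pair p G := by
  have key : ∀ A : Subgroup G, IsPGroup p A → ∃ a : G, A ≤ cj a (P : Subgroup G) := by
    intro A hA
    obtain ⟨Q, hQ⟩ := hA.exists_le_sylow
    obtain ⟨a, rfl⟩ := MulAction.exists_smul_eq G P Q
    exact ⟨a, by rwa [coe_smul_sylow] at hQ⟩
  intro A B hA hB
  obtain ⟨a, ha⟩ := key A hA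
  obtain ⟨b, hb⟩ := key B hB
  have h1 : IsPSolvable p ↥(cj a ((P : Subgroup G) ⊔ cj (a⁻¹ * b) (P : Subgroup G))) :=
    PLocal.PSolv.map (h (a⁻¹ * b)) _
  refine PLocal.PSolv.of_le h1 ?_
  rw [cj_sup, ← cj_mul, mul_inv_cancel_left]
  exact sup_le_sup ha hb

theorem Pair.subgroup (h : Pair p G) (X : Subgroup G) : Pair p X := by
  intro A B hA hB
  have h1 := h (A.map X.subtype) (B.map X.subtype) (hA.map _) (hB.map _)
  rw [← Subgroup.map_sup] at h1
  exact PLocal.PSolv.of_equiv h1 ((A ⊔ B).equivMapOfInjective X.subtype X.subtype_injective).symm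

/-- a `p`-subgroup `A` of the image lies in the image of a Sylow subgroup of `G` (`Sylow.mapSurjective`,
conjugacy), and `(P₁ ⊔ P₂).map f` is `p`-solvable (`PLocal.PSolv.map`). -/
theorem Pair.of_surjective (h : Pair p G) {Q : Type*} [Group Q] [Finite Q] {f : G →* Q}
    (hf : Function.Surjective f) : Pair p Q := by
  have key : ∀ A : Subgroup Q, IsPGroup p A → ∃ P : Sylow p G, A ≤ (P : Subgroup G).map f := by
    intro A hA
    obtain ⟨R, hR⟩ := hA.exists_le_sylow
    obtain ⟨P, rfl⟩ := Sylow.mapSurjective_surjective hf p R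
    exact ⟨P, hR⟩
  intro A B hA hB
  obtain ⟨P₁, h₁⟩ := key A hA
  obtain ⟨P₂, h₂⟩ := key B hB
  have h1 := PLocal.PSolv.map (h P₁ P₂ P₁.isPGroup' P₂.isPGroup') f
  refine PLocal.PSolv.of_le h1 ?_
  rw [Subgroup.map_sup]
  exact sup_le_sup h₁ h₂

universe u in
/-- strong induction on the order (`PLocal.PSolv.of_normal_of_quotient`; see `FewSyl.exists_simple`). -/
theorem reduction
    (key : ∀ (S : Type u) [Group S] [Finite S] [IsSimpleGroup S], Pair p S →
      (∀ X : Subgroup S, X ≠ ⊤ → IsPSolvable p X) → IsPSolvable p S)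
    (G : Type u) [Group G] [Finite G] (h : Pair p G) : IsPSolvable p G := by
  induction hn : Nat.card G using Nat.strong_induction_on generalizing G with
  | _ n ih =>
  subst hn
  by_cases hs : IsSimpleGroup G
  · exact key G h fun X hX => ih _ (Core.card_lt_of_ne_top hX) X (h.subgroup X) rfl
  by_cases ht : Subsingleton G
  · exact PLocal.PSolv.of_isPGroup (IsPGroup.of_subsingleton p G)
  have : Nontrivial G := not_subsingleton_iff_nontrivial.1 ht
  obtain ⟨K, hK, hK1, hK2⟩ : ∃ N : Subgroup G, N.Normal ∧ N ≠ ⊥ ∧ N ≠ ⊤ := by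
    by_contra hc
    push Not at hc
    exact hs ⟨fun N hN => or_iff_not_imp_left.2 (hc N hN)⟩
  exact PLocal.PSolv.of_normal_of_quotient K
    (ih _ (Core.card_lt_of_ne_top hK2) K (h.subgroup K) rfl)
    (ih _ (Core.card_quotient_lt_of_ne_bot hK1) (G ⧸ K)
      (h.of_surjective (QuotientGroup.mk'_surjective K)) rfl)

end CfsgLib.SP2
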