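import Mathlib
import Cfsg.Agent.Lib.SP2.HY
import Cfsg.Agent.Lib.SP2.END
import Cfsg.Agent.Lib.SP2.Red
import Cfsg.Agent.Lib.Block.Span
import Cfsg.Agent.S0215

/-! SP2/Main: if any two `p`-subgroups generate a `p`-solvable group, the group is `p`-solvable. -/

set_option autoImplicit false
set_option linter.unusedSectionVars false
set_option linter.unusedVariables false

namespace CfsgLib.SP2

open Subgroup Cfsg CfsgLib.PComp CfsgLib.Tech CfsgLib.Char CfsgLib.XC

theorem exists_central {G : Type*} [Group G] [Finite G] {p : ℕ} [hp : Fact p.Prime] {P : Subgroup G}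
    (hP : IsPGroup p P) (h1 : P ≠ ⊥) : ∃ a ∈ P, orderOf a = p ∧ P ≤ centralizer ({a} : Set G) := by
  have : Nontrivial P := (nontrivial_iff_ne_bot P).2 h1
  have := hP.center_nontrivial
  obtain ⟨k, hk0, hk⟩ := (hP.to_subgroup (center P)).nontrivial_iff_card.1 this
  obtain ⟨z, hz⟩ := exists_prime_orderOf_dvd_card' (G := center P) p (hk ▸ dvd_pow_self p hk0.ne')
  refine ⟨((z : P) : G), (z : P).2, by rw [orderOf_coe, orderOf_coe, hz], fun x hx => ?_⟩
  exact mem_centralizer_singleton_iff.2 (congrArg Subtype.val (mem_center_iff.1 z.2 ⟨x, hx⟩))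

theorem simple_case {G : Type*} [Group G] [Finite G] {p : ℕ} [hp : Fact p.Prime] [IsSimpleGroup G]
    (h : Pair p G) (hX : ∀ X : Subgroup G, X ≠ ⊤ → IsPSolvable p X) : IsPSolvable p G := by
  by_contra hG
  obtain ⟨P⟩ : Nonempty (Sylow p G) := inferInstance
  have hcop : ¬ (Nat.card G).Coprime p := fun hc => hG (PLocal.PSolv.of_coprime hc)
  have hP : (P : Subgroup G) ≠ ⊥ := fun e => hcop (by
    have := P.not_dvd_index
    rw [e, index_bot] at this
    exact ((Nat.Prime.coprime_iff_not_dvd hp.out).2 this).symm)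
  obtain ⟨a, haP, ho, hPa⟩ := exists_central P.isPGroup' hP
  have ha1 : a ≠ 1 := fun e => hp.out.one_lt.ne (by rw [← ho, e, orderOf_one])
  have hD : a ∈ DZ p G := ⟨P, haP, hPa⟩
  have ha : a ∈ WW p (P : Subgroup G) := mem_WW hD haP
  have hc : ∀ c : G, c ≠ 1 → centralizer ({c} : Set G) ≠ ⊤ := fun c hc1 e => by
    have h1 : c ∈ center G := mem_center_iff.2 fun g =>
      mem_centralizer_singleton_iff.1 (e ▸ mem_top g)
    rcases (inferInstance : (center G).Normal).eq_bot_or_eq_top with e1 | e1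
    · exact hc1 (mem_bot.1 (e1 ▸ h1))
    · have : Group.IsSolvable G := isSolvable_of_comm fun x y =>
        mem_center_iff.1 (e1 ▸ mem_top y : y ∈ center G) x
      exact hG PLocal.PSolv.of_isSolvable
  obtain ⟨M, hM⟩ := Block.exists_isPModular' hp.out
  have hy := hy_W h P
  have hb : Bk p M _ _ _ _ := ⟨hy, hM, fun L hL hLW => hL.eq_bot_or_eq_top.resolve_right fun e => by
      have e2 : WW p (P : Subgroup G) = ⊤ := top_le_iff.1 (e ▸ hLW)
      exact hG (PLocal.PSolv.of_isPGroup ((e2 ▸ hy.pg : IsPGroup p (⊤ : Subgroup G)).of_equiv topEquiv)),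
    good_W h P hM fun c hc1 => hX _ (hc c hc1), fun ψ _ hψ =>
      (charKer_normal (irr_isClassFunction ψ)).eq_bot_or_eq_top.resolve_right fun e =>
        hψ (Subtype.ext (irr_eq_one_of_charKer_eq_top ψ.2 e))⟩
  have hPN : (P : Subgroup G) ≤ normalizer (WW p (P : Subgroup G) : Set G) := fun g hg => by
    rw [mem_normalizer_iff_cj, cj_WW, cj_eq_of_mem hg]
  have hO := not_dvd_Orb hy P hPN ha hPa
  by_cases hp2 : p = 2
  · subst hp2
    have hi : a⁻¹ = a := by
      rw [inv_eq_iff_mul_eq_one, ← sq, ← ho, pow_orderOf_eq_one]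
    obtain ⟨L, hL, hodd, hcom⟩ := Cfsg.Agent.S0215.result P a ho haP fun g hg => by
      have := Orb_eq hb ha ha1 hO (mem_WW (conj_mem_DZ hD g) hg) (isConj_iff.2 ⟨g, rfl⟩).symm
      rwa [hi, or_self] at this
    rcases hL.eq_bot_or_eq_top with e | e
    · refine hc a ha1 (eq_top_iff.2 fun g _ => mem_centralizer_singleton_iff.2 ?_)
      have := hcom g
      rw [e, mem_bot, mul_inv_eq_one, mul_inv_eq_iff_eq_mul] at this
      exact this.symm
    · rw [e, card_top] at hodd
      exact hcop hodd.coprime_two_right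
  · exact case_odd hb hp2 ha ho hO

theorem main {G : Type*} [Group G] [Finite G] {p : ℕ} [hp : Fact p.Prime] (h : Pair p G) : IsPSolvable p G :=
  reduction (fun S _ _ _ h hX => simple_case h hX) G h

end CfsgLib.SP2
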